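import Cfsg.Agent.Depth.P.Tab

/-!
# Depth (S5768): the bit-sliced machine for the tables (helper45), definitions

A vector of numbers is a list of bit planes : the lane `i` of the plane `b` is the binary digit `b` of the number `i`.
-/

set_option autoImplicit false

namespace Cfsg.Agent.Depth.P.T

/-- `n` ones -/
def ones (n : ℕ) : ℕ := Nat.sub (Nat.shiftLeft 1 n) 1

/-- a map on the planes -/
noncomputable def mp (f : ℕ → ℕ) (a : List ℕ) : List ℕ := List.rec [] (fun x _ ih => f x :: ih) a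

/-- add one plane -/
noncomputable def addH (a : List ℕ) : ℕ → List ℕ :=
  List.rec (fun c => Bool.rec [c] [] (Nat.beq c 0))
    (fun x xs ih c => Bool.rec (Nat.xor x c :: ih (Nat.land x c)) (x :: xs) (Nat.beq c 0)) a

/-- the exact sum with a carry plane -/
noncomputable def addC (a : List ℕ) : List ℕ → ℕ → List ℕ :=
  List.rec (fun b c => addH b c)
    (fun x xs ih b c => List.rec (addH (x :: xs) c)
      (fun y ys _ => Bool.rec
        (Nat.xor (Nat.xor x y) c :: ih ys (Nat.lor (Nat.land x y) (Nat.land (Nat.xor x y) c)))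
        (Nat.xor x y :: ih ys (Nat.land x y)) (Nat.beq c 0)) b) a

/-- the sum modulo a power of two -/
noncomputable def addM (a : List ℕ) : List ℕ → ℕ → List ℕ :=
  List.rec (fun _ _ => [])
    (fun x _ ih b c => List.rec []
      (fun y ys _ => Nat.xor (Nat.xor x y) c :: ih ys (Nat.lor (Nat.land x y) (Nat.land (Nat.xor x y) c))) b) a

/-- the difference modulo a power of two -/
noncomputable def subM (a : List ℕ) : List ℕ → ℕ → List ℕ :=
  List.rec (fun _ _ => [])
    (fun x _ ih b c => List.rec []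
      (fun y ys _ => Nat.xor (Nat.xor x y) c :: ih ys (Nat.xor c (Nat.land (Nat.xor x y) (Nat.xor y c)))) b) a

/-- the first `n` planes -/
noncomputable def fixN (n : ℕ) : List ℕ → List ℕ :=
  Nat.rec (fun _ => []) (fun _ ih a => List.rec (0 :: ih []) (fun x xs _ => x :: ih xs) a) n

/-- all planes but the first `n` -/
noncomputable def drp (n : ℕ) : List ℕ → List ℕ :=
  Nat.rec (fun a => a) (fun _ ih a => List.rec [] (fun _ xs _ => ih xs) a) n

/-- the first plane -/
noncomputable def hd (a : List ℕ) : ℕ := List.rec 0 (fun x _ _ => x) a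

/-- the lanes where `a` is greater than `b` -/
noncomputable def gtP (a : List ℕ) : List ℕ → ℕ → ℕ :=
  List.rec (fun _ g => g)
    (fun x _ ih b g => List.rec g (fun y ys _ => ih ys (Nat.xor g (Nat.land (Nat.xor x y) (Nat.xor g x)))) b) a

/-- `a` on the lanes of `g`, `b` elsewhere -/
noncomputable def mux (g : ℕ) (a : List ℕ) : List ℕ → List ℕ :=
  List.rec (fun _ => [])
    (fun x _ ih b => List.rec [] (fun y ys _ => Nat.xor y (Nat.land (Nat.xor x y) g) :: ih ys) b) a

/-- the maximum -/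
noncomputable def maxP (a b : List ℕ) : List ℕ := mux (gtP a b 0) a b

/-- equality of lists -/
noncomputable def eqL (a : List ℕ) : List ℕ → Bool :=
  List.rec (fun b => List.rec true (fun _ _ _ => false) b)
    (fun x _ ih b => List.rec false (fun y ys _ => Bool.rec false (ih ys) (Nat.beq x y)) b) a

/-- the length -/
noncomputable def len (a : List ℕ) : ℕ := List.rec 0 (fun _ _ ih => Nat.succ ih) a

/-- `q` copies of `x` at the distance `k` -/
noncomputable def rep (f x k : ℕ) : ℕ → ℕ :=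
  Nat.rec (fun _ => x) (fun _ ih q => Bool.rec
    (Nat.lor (ih (Nat.shiftRight (Nat.succ q) 1))
      (Nat.shiftLeft (ih (Nat.shiftRight (Nat.succ q) 1)) (Nat.mul (Nat.shiftRight q 1) k))) x (Nat.ble q 1)) f

/-- the multiples of `k` below `L` -/
noncomputable def cbA (L k : ℕ) : ℕ := rep 20 1 k (Nat.succ (Nat.div L k))

/-- the multiples of `k` below `2 L` -/
noncomputable def cbB (L k : ℕ) : ℕ :=
  Nat.lor (cbA L k) (Nat.shiftLeft (cbA L k) (Nat.mul (Nat.succ (Nat.div L k)) k))

/-- minus the inverse of `30` modulo `k` -/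
def ninv (k : ℕ) : ℕ := Nat.div (Nat.sub (Nat.mul (Nat.mod (Nat.mul k (Nat.mul k k)) 30) k) 1) 30

/-- the lanes `i` with `k ∣ 30 (b + i) + c` -/
noncomputable def pat (cb : ℕ → ℕ) (b c k : ℕ) : ℕ :=
  Nat.shiftLeft (cb k) (Nat.mod (Nat.add (Nat.mul c (ninv k)) (Nat.sub k (Nat.mod b k))) k)

/-- sums of neighbours -/
noncomputable def pairUp (l : List (List ℕ)) : Option (List ℕ) → List (List ℕ) :=
  List.rec (fun o => Option.rec [] (fun a => [a]) o)
    (fun x _ ih o => Option.rec (ih (some x)) (fun a => addC a x 0 :: ih none) o) l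

/-- the sum of a list of vectors -/
noncomputable def sumV (n : ℕ) : List (List ℕ) → List ℕ :=
  Nat.rec (fun l => List.rec [] (fun a _ ih => addC a ih 0) l) (fun _ ih l => ih (pairUp l none)) n

/-- the number of the `k` in the list which divide `30 (b + i) + c` -/
noncomputable def cnt (cb : ℕ → ℕ) (b c : ℕ) (l : List ℕ) : List ℕ :=
  sumV 12 (List.rec [] (fun k _ ih => [pat cb b c k] :: ih) l)

/-- `n` lanes from the lane `o` on -/
def win (o n x : ℕ) : ℕ := Nat.shiftRight (Nat.land x (ones (Nat.add o n))) o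

/-- the rows of width `w` move to the even places; `R` rows, groups of `2 ^ t` rows -/
noncomputable def dil (w R t : ℕ) : ℕ → ℕ :=
  Nat.rec (fun x => x) (fun t ih x => ih (Nat.land (Nat.lor x (Nat.shiftLeft x (Nat.shiftLeft w t)))
    (rep 20 (ones (Nat.shiftLeft w t)) (Nat.shiftLeft w (Nat.succ t)) (Nat.succ (Nat.shiftRight R t))))) t

/-- prefix sums with the stride `s` on `n` lanes -/
noncomputable def pre (n t : ℕ) : ℕ → List ℕ → List ℕ :=
  Nat.rec (fun _ x => x) (fun _ ih s x => ih (Nat.add s s)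
    (addM x (mp (fun p => Nat.shiftLeft (Nat.land p (ones (Nat.sub n s))) s) x) 0)) t

/-- folding `R` rows of width `w` -/
noncomputable def fold (op : List ℕ → List ℕ → List ℕ) (w t : ℕ) : ℕ → List ℕ → List ℕ :=
  Nat.rec (fun _ x => x) (fun _ ih R x => ih (Nat.shiftRight (Nat.succ R) 1)
    (op (mp (Nat.land (ones (Nat.mul (Nat.shiftRight (Nat.succ R) 1) w))) x)
      (mp (fun p => Nat.shiftRight p (Nat.mul (Nat.shiftRight (Nat.succ R) 1) w)) x))) t

/-- a number of halving steps -/
def lg (n : ℕ) : ℕ := Nat.succ (Nat.log2 (Nat.sub n 1))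

/-- the number in the first lane -/
noncomputable def num (a : List ℕ) : ℕ := List.rec 0 (fun x _ ih => Nat.add (Nat.land x 1) (Nat.mul 2 ih)) a

/-- the planes of a packed vector -/
noncomputable def unp (w n : ℕ) : ℕ → List ℕ :=
  Nat.rec (fun _ => []) (fun _ ih S => Nat.land S (ones w) :: ih (Nat.shiftRight S w)) n

/-- the constant vector -/
noncomputable def cst (m n : ℕ) : ℕ → List ℕ :=
  Nat.rec (fun _ => []) (fun _ ih v => Nat.mul (Nat.land v 1) m :: ih (Nat.shiftRight v 1)) n

/-- the columns `u < n` with `30 u + c` prime to `W` -/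
noncomputable def cmask (W c n : ℕ) : ℕ :=
  Nat.rec 0 (fun u ih => Bool.rec ih (Nat.lor ih (Nat.shiftLeft 1 u))
    (Nat.beq (Nat.gcd (Nat.add (Nat.mul 30 u) c) W) 1)) n

/-- a table: the version `c`, the width `w = W / 30`, the additional terms -/
structure Job where
  c : ℕ
  w : ℕ
  xp : List ℕ
  xm : List ℕ

/-- a table on a segment: the rows `sa ≤ s < sa + R`, the states at both ends and the blocks -/
structure Dyn where
  sa : ℕ
  R : ℕ
  s : ℕ
  s' : ℕ
  bl : List (ℕ × ℕ × ℕ)

/-- the common data of a segment: the first lane, the number of lanes, the class, the common terms -/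
structure Seg where
  n : ℕ
  L : ℕ
  c : ℕ
  lp : List ℕ
  lm : List ℕ

/-- the counter of the positive terms -/
noncomputable def cP (cb : ℕ → ℕ) (b c : ℕ) (l x : List ℕ) : List ℕ := addC (cnt cb b c l) (cnt cb b c x) 0

/-- the counter of the negative terms -/
noncomputable def cN (cb : ℕ → ℕ) (b c : ℕ) (l x : List ℕ) : List ℕ :=
  addC (cnt cb b c l) (cnt cb b c x) (Bool.rec 0 1 (Nat.beq (Nat.add (Nat.mul 30 b) c) 1))

/-- the values of `e` on a window -/
noncomputable def ew (cb : ℕ → ℕ) (b c : ℕ) (lp lm xp xm : List ℕ) (o n : ℕ) : List ℕ :=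
  subM (fixN 9 (mp (win o n) (cP cb b c lp xp))) (fixN 9 (mp (win o n) (cN cb b c lm xm))) 0

/-- the counters are small -/
noncomputable def okw (cb : ℕ → ℕ) (b c : ℕ) (lp lm xp xm : List ℕ) : Bool :=
  Bool.rec false (Nat.ble (len (cN cb b c lm xm)) 5) (Nat.ble (len (cP cb b c lp xp)) 5)

/-- the first part -/
noncomputable def eA (S : Seg) (J : Job) (D : Dyn) : List ℕ :=
  ew (cbA S.L) S.n S.c S.lp S.lm J.xp J.xm (Nat.sub (Nat.mul D.sa J.w) S.n) (Nat.mul D.R J.w)

/-- the steps which are added -/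
noncomputable def eB (S : Seg) (J : Job) (D : Dyn) : List ℕ :=
  ew (cbB S.L) (Nat.mul 2 S.n) S.c S.lp S.lm J.xp J.xm (Nat.mul 2 (Nat.sub (Nat.mul D.sa J.w) S.n))
    (Nat.mul 2 (Nat.mul D.R J.w))

/-- the steps which are subtracted -/
noncomputable def eD (S : Seg) (J : Job) (D : Dyn) : List ℕ :=
  Bool.rec (fixN 9 []) (mp (fun x => Nat.shiftLeft (dil J.w D.R (lg D.R) x) J.w) (eA S J D)) (Nat.beq J.c 2)

/-- the number of lanes -/
def nV (J : Job) (D : Dyn) : ℕ := Nat.mul (Nat.succ (Nat.mul 2 D.R)) J.w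

/-- the walk -/
noncomputable def v1 (S : Seg) (J : Job) (D : Dyn) : List ℕ :=
  pre (nV J D) (lg (Nat.succ (Nat.mul 2 D.R))) J.w
    (addM (mp (fun x => Nat.shiftLeft x J.w) (subM (eB S J D) (eD S J D) 0)) (unp J.w 9 D.s) 0)

/-- the intermediate values -/
noncomputable def v2 (S : Seg) (J : Job) (D : Dyn) : List ℕ := subM (v1 S J D) (eD S J D) 0

/-- upper values -/
noncomputable def vX (S : Seg) (J : Job) (D : Dyn) : List ℕ := maxP (v1 S J D) (v2 S J D)

/-- lower values -/
noncomputable def vY (S : Seg) (J : Job) (D : Dyn) : List ℕ :=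
  maxP (mp (Nat.xor (ones (nV J D))) (v1 S J D)) (mp (Nat.xor (ones (nV J D))) (v2 S J D))

/-- the columns -/
noncomputable def cm (S : Seg) (J : Job) : ℕ := cmask (Nat.mul 30 J.w) S.c J.w

/-- the values lie between `64` and `447` on the lanes of `m` -/
noncomputable def rng (m : ℕ) (a : List ℕ) : Bool :=
  Bool.rec false (Nat.beq (Nat.land m (gtP (drp 6 a) (cst m 3 6) 0)) 0)
    (Nat.beq (Nat.land m (gtP (cst m 3 1) (drp 6 a) 0)) 0)

/-- the check of the walk -/
noncomputable def okc (S : Seg) (J : Job) (D : Dyn) : Bool :=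
  okw (cbA S.L) S.n S.c S.lp S.lm J.xp J.xm && okw (cbB S.L) (Nat.mul 2 S.n) S.c S.lp S.lm J.xp J.xm &&
    rng (rep 20 (cm S J) J.w (Nat.succ (Nat.mul 2 D.R))) (v1 S J D) &&
    eqL (mp (fun p => Nat.land (Nat.shiftRight p (Nat.mul (Nat.mul 2 D.R) J.w)) (cm S J)) (v1 S J D))
      (unp J.w 9 D.s')

/-- a loop over triples -/
noncomputable def for3 {β : Type} (z : β) (f : ℕ → ℕ → ℕ → β → β) (l : List (ℕ × ℕ × ℕ)) : β :=
  List.rec z (fun x _ ih => Prod.rec (fun a r => Prod.rec (fun b c => f a b c ih) r) x) l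

/-- the maximum over the places `a ≤ σ ≤ a + n - 1` -/
noncomputable def bmax (w a n : ℕ) (X : List ℕ) : List ℕ :=
  fold maxP w (lg n) n (mp (win (Nat.mul a w) (Nat.mul n w)) X)

/-- the top plane on the columns -/
noncomputable def top (m : ℕ) (a : List ℕ) : ℕ := Nat.land m (hd (drp 8 a))

/-- the excess over `256` -/
noncomputable def pos (m : ℕ) (a : List ℕ) : List ℕ := mp (Nat.land (top m a)) (fixN 8 a)

/-- the sum of the columns -/
noncomputable def csum (w : ℕ) (a : List ℕ) : ℕ := num (fold (fun x y => addC x y 0) 1 (lg w) w a)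

/-- the check of a block -/
noncomputable def okb (w m : ℕ) (X Y : List ℕ) (sp sm : ℕ) : Bool :=
  Nat.beq (gtP (pos m X) (cst (ones w) 8 160) 0) 0 && Nat.beq (gtP (pos m Y) (cst (ones w) 8 159) 0) 0 &&
  Nat.ble (csum w (pos m X)) sp && Nat.ble (csum w (addH (pos m Y) (top m Y))) sm

/-- the check of the blocks from the row `s` on -/
noncomputable def okl (S : Seg) (J : Job) (D : Dyn) (l : List (ℕ × ℕ × ℕ)) : ℕ → Bool :=
  for3 (fun _ => true) (fun s' sp sm ih s => Nat.ble s s' && Nat.ble (Nat.mul 2 D.sa) (Nat.mul J.c s) &&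
    Nat.ble (Nat.mul J.c s') (Nat.mul 2 (Nat.add D.sa D.R)) &&
    okb J.w (cm S J)
      (bmax J.w (Nat.sub (Nat.mul J.c s) (Nat.mul 2 D.sa)) (Nat.succ (Nat.mul J.c (Nat.sub s' s))) (vX S J D))
      (bmax J.w (Nat.sub (Nat.mul J.c s) (Nat.mul 2 D.sa)) (Nat.succ (Nat.mul J.c (Nat.sub s' s))) (vY S J D))
      sp sm && ih s') l

/-- the check of a table on a segment -/
noncomputable def okJ (S : Seg) (J : Job) (D : Dyn) : Bool :=
  Nat.ble S.L 500000 && Nat.ble S.n (Nat.mul D.sa J.w) &&
    Nat.ble (Nat.mul (Nat.add D.sa D.R) J.w) (Nat.add S.n S.L) &&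
    okc S J D && okl S J D D.bl (Nat.div (Nat.mul 2 D.sa) J.c)

end Cfsg.Agent.Depth.P.T
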