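import Cfsg.Agent.Depth.P.T.Val

/-!
# Depth (S5768): the bit-sliced machine for the tables (helper45), patterns, prefix sums and foldings
-/

set_option autoImplicit false

namespace Cfsg.Agent.Depth.P.T

theorem rep_spec (x k f : ℕ) : ∀ q i : ℕ, 1 ≤ q → q ≤ 2 ^ f →
    ((rep f x k q).testBit i = true ↔ ∃ a < q, a * k ≤ i ∧ x.testBit (i - a * k) = true) := by
  have one : ∀ i : ℕ, (x.testBit i = true ↔ ∃ a < 1, a * k ≤ i ∧ x.testBit (i - a * k) = true) := by
    intro i
    constructor
    · intro h; exact ⟨0, by omega, by omega, by simpa using h⟩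
    · rintro ⟨a, ha, -, h⟩
      have : a = 0 := by omega
      subst this
      simpa using h
  induction f with
  | zero =>
    intro q i h1 h2
    have : q = 1 := by omega
    subst this
    exact one i
  | succ f ih =>
    intro q i h1 h2
    show (Bool.rec (Nat.lor (rep f x k ((q + 1) >>> 1)) (Nat.shiftLeft (rep f x k ((q + 1) >>> 1)) ((q >>> 1) * k)))
      x (Nat.ble q 1) : ℕ).testBit i = true ↔ _
    rw [brec]
    split
    · next h =>
      have : q = 1 := by have := (ble_t _ _).1 h; omega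
      subst this
      exact one i
    · next h =>
      have hq : 2 ≤ q := by
        by_contra hc
        exact h ((ble_t _ _).2 (by omega))
      rw [Nat.shiftRight_one, Nat.shiftRight_one, tb_or, tb_shl, Bool.or_eq_true, Bool.and_eq_true,
        ih _ _ (by omega) (by omega), ih _ _ (by omega) (by omega), decide_eq_true_eq]
      constructor
      · rintro (⟨a, ha, h3, h4⟩ | ⟨h5, a, ha, h3, h4⟩)
        · exact ⟨a, by omega, h3, h4⟩
        · refine ⟨a + q / 2, by omega, by rw [Nat.add_mul]; omega, ?_⟩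
          rw [← h4, Nat.add_mul]
          congr 1
          omega
      · rintro ⟨a, ha, h3, h4⟩
        by_cases hc : a < (q + 1) / 2
        · exact Or.inl ⟨a, hc, h3, h4⟩
        · obtain ⟨b, rfl⟩ : ∃ b, a = b + q / 2 := ⟨a - q / 2, by omega⟩
          rw [Nat.add_mul] at h3 h4
          refine Or.inr ⟨by omega, b, by omega, by omega, ?_⟩
          rw [← h4]
          congr 1
          omega

/-- copies of a narrow word -/
theorem rep_row (x k q a b : ℕ) (h1 : 1 ≤ q) (h2 : q ≤ 2 ^ 20) (ha : a < q) (hb : x.testBit b = true) :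
    (rep 20 x k q).testBit (a * k + b) = true :=
  (rep_spec x k 20 q _ h1 h2).2 ⟨a, ha, by omega, by simpa using hb⟩

theorem tb_one (i : ℕ) : Nat.testBit 1 i = true ↔ i = 0 := by
  have := tb_ones 1 i
  change Nat.testBit 1 i = _ at this
  rw [this]
  simp

theorem cbA_iff (L k i : ℕ) (hL : L ≤ 500000) : (cbA L k).testBit i = true ↔ ∃ a < L / k + 1, i = a * k := by
  have : L / k ≤ L := Nat.div_le_self _ _
  show (rep 20 1 k (L / k + 1)).testBit i = true ↔ _
  rw [rep_spec 1 k 20 _ i (Nat.succ_pos _) (by omega)]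
  constructor
  · rintro ⟨a, ha, h1, h2⟩
    rw [tb_one] at h2
    exact ⟨a, ha, by omega⟩
  · rintro ⟨a, ha, rfl⟩
    exact ⟨a, ha, le_rfl, by simp⟩

/-- the combs are right below `L` -/
def Comb (cb : ℕ → ℕ) (L : ℕ) : Prop := ∀ k i : ℕ, 1 ≤ k → i < L → ((cb k).testBit i = true ↔ k ∣ i)

theorem comb_A (L : ℕ) (hL : L ≤ 500000) : Comb (cbA L) L := by
  intro k i hk hi
  rw [cbA_iff L k i hL]
  constructor
  · rintro ⟨a, -, rfl⟩; exact Dvd.intro_left a rfl
  · rintro ⟨a, rfl⟩
    refine ⟨a, ?_, Nat.mul_comm _ _⟩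
    have : a ≤ L / k := (Nat.le_div_iff_mul_le hk).2 (by rw [Nat.mul_comm]; omega)
    omega

theorem comb_B (L : ℕ) (hL : L ≤ 500000) : Comb (cbB L) (2 * L) := by
  intro k i hk hi
  show (Nat.lor (cbA L k) (Nat.shiftLeft (cbA L k) ((L / k + 1) * k))).testBit i = true ↔ _
  rw [tb_or, tb_shl, Bool.or_eq_true, Bool.and_eq_true, cbA_iff L k _ hL, cbA_iff L k _ hL, decide_eq_true_eq]
  constructor
  · rintro (⟨a, -, rfl⟩ | ⟨h1, a, -, h2⟩)
    · exact Dvd.intro_left a rfl
    · exact ⟨L / k + 1 + a, by rw [Nat.mul_comm k, Nat.add_mul]; omega⟩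
  · rintro ⟨a, rfl⟩
    by_cases hc : a < L / k + 1
    · exact Or.inl ⟨a, hc, Nat.mul_comm _ _⟩
    · obtain ⟨b, rfl⟩ : ∃ b, a = L / k + 1 + b := ⟨a - (L / k + 1), by omega⟩
      have h1 : L < (L / k + 1) * k := by
        rw [Nat.mul_comm]; exact Nat.lt_mul_div_succ L hk
      rw [Nat.mul_comm k, Nat.add_mul (L / k + 1)] at hi ⊢
      refine Or.inr ⟨by omega, b, ?_, by omega⟩
      by_contra hb
      have : (L / k + 1) * k ≤ b * k := Nat.mul_le_mul_right k (by omega)
      omega

theorem ninv_spec (k : ℕ) (h : k.Coprime 30) : k ∣ 30 * ninv k + 1 := by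
  have key : ∀ r < 30, Nat.gcd r 30 = 1 → (r * (r * r)) % 30 * r % 30 = 1 := by decide
  have h1 : (k * (k * k)) % 30 * k % 30 = 1 := by
    have h2 := key (k % 30) (Nat.mod_lt _ (by norm_num)) (by
      rw [← Nat.gcd_rec, Nat.gcd_comm]; exact h)
    rw [← h2]
    have e : k % 30 ≡ k [MOD 30] := Nat.mod_modEq k 30
    exact (((Nat.mod_modEq _ 30).trans (e.mul (e.mul e)).symm).trans (Nat.mod_modEq _ 30).symm).mul e.symm
  have h3 : 30 * ninv k + 1 = (k * (k * k)) % 30 * k := by
    show 30 * (((k * (k * k)) % 30 * k - 1) / 30) + 1 = _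
    omega
  rw [h3]
  exact Dvd.intro_left _ rfl

theorem pat_spec {cb : ℕ → ℕ} {L : ℕ} (hc : Comb cb L) (b c k i : ℕ) (hk : k.Coprime 30) (hi : i < L) :
    (pat cb b c k).testBit i = decide (k ∣ 30 * (b + i) + c) := by
  have hk1 : 1 ≤ k := by
    rcases Nat.eq_zero_or_pos k with h | h
    · subst h; simp at hk
    · exact h
  obtain ⟨o, ho⟩ : ∃ o, o = (c * ninv k + (k - b % k)) % k := ⟨_, rfl⟩
  have e : pat cb b c k = Nat.shiftLeft (cb k) o := by rw [ho]; rfl
  have hok : o < k := ho ▸ Nat.mod_lt _ hk1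
  have h1 : (k : ℤ) ∣ 30 * (b + o) + c := by
    have a1 : (k : ℤ) ∣ 30 * (ninv k : ℤ) + 1 := by exact_mod_cast Int.natCast_dvd_natCast.2 (ninv_spec k hk)
    have a2 := Nat.mod_add_div (c * ninv k + (k - b % k)) k
    have a3 := Nat.mod_add_div b k
    have a4 : b % k < k := Nat.mod_lt _ hk1
    rw [← ho] at a2
    obtain ⟨d, hd⟩ : ∃ d, d = k - b % k := ⟨_, rfl⟩
    rw [← hd] at a2
    have a5 : d + b % k = k := by omega
    obtain ⟨t, ht⟩ := a1
    refine ⟨c * t + 30 * (1 + (b / k : ℕ) - ((c * ninv k + d) / k : ℕ)), ?_⟩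
    zify at a2 a3 a5
    push_cast
    linear_combination (c : ℤ) * ht + 30 * a2 + 30 * a5 - 30 * a3
  have h2 : k ∣ 30 * (b + i) + c ↔ (k : ℤ) ∣ (i : ℤ) - o := by
    rw [← Int.natCast_dvd_natCast]
    push_cast
    constructor
    · intro h
      have h3 : (k : ℤ) ∣ 30 * ((i : ℤ) - o) := by
        have := dvd_sub h h1
        rwa [show (30 : ℤ) * (b + i) + c - (30 * (b + o) + c) = 30 * (i - o) by ring] at this
      exact (Nat.isCoprime_iff_coprime.2 hk).dvd_of_dvd_mul_left (by exact_mod_cast h3)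
    · intro h
      have := dvd_add h1 (Dvd.dvd.mul_left h 30)
      rwa [show (30 : ℤ) * (b + o) + c + 30 * (i - o) = 30 * (b + i) + c by ring] at this
  rw [e, tb_shl, Bool.eq_iff_iff, Bool.and_eq_true, decide_eq_true_eq, decide_eq_true_eq,
    hc k _ hk1 (by omega), h2]
  constructor
  · rintro ⟨h3, h4⟩
    rw [← Nat.cast_sub h3]
    exact Int.natCast_dvd_natCast.2 h4
  · intro h
    have h3 : o ≤ i := by
      by_contra h5
      have h6 : (k : ℤ) ∣ (o : ℤ) - i := by simpa using h.neg_right
      have := Int.le_of_dvd (by omega) h6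
      omega
    rw [← Nat.cast_sub h3] at h
    exact ⟨h3, Int.natCast_dvd_natCast.1 h⟩

theorem pairUp_spec (i : ℕ) (l : List (List ℕ)) : ∀ o : Option (List ℕ),
    ((pairUp l o).map (fun a => val a i)).sum = (l.map (fun a => val a i)).sum + o.elim 0 (fun a => val a i) := by
  induction l with
  | nil => intro o; cases o <;> simp [pairUp]
  | cons x xs ih =>
    intro o
    cases o with
    | none =>
      show ((pairUp xs (some x)).map _).sum = _
      rw [ih]; simp [Nat.add_comm]
    | some a =>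
      show ((addC a x 0 :: pairUp xs none).map _).sum = _
      rw [List.map_cons, List.sum_cons, ih, val_addC0]
      simp
      omega

theorem sumV_spec (i n : ℕ) : ∀ l : List (List ℕ), val (sumV n l) i = (l.map (fun a => val a i)).sum := by
  induction n with
  | zero =>
    intro l
    induction l with
    | nil => rfl
    | cons x xs ih =>
      show val (addC x (sumV 0 xs) 0) i = _
      rw [val_addC0, ih]; simp
  | succ n ih =>
    intro l
    show val (sumV n (pairUp l none)) i = _
    rw [ih, pairUp_spec]; simp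

theorem sumV_leaf (f : ℕ → ℕ) (i n : ℕ) (l : List ℕ) :
    val (sumV n (List.rec [] (fun k _ ih => [f k] :: ih) l)) i = (l.map (fun k => ((f k).testBit i).toNat)).sum := by
  rw [sumV_spec]
  induction l with
  | nil => rfl
  | cons x xs ih =>
    show (List.map _ ([f x] :: _)).sum = _
    rw [List.map_cons, List.sum_cons, ih]
    rfl

/-- the number of the divisors in a list -/
def nd (l : List ℕ) (j : ℕ) : ℕ := (l.map (fun k => (decide (k ∣ j)).toNat)).sum

theorem cnt_spec {cb : ℕ → ℕ} {L : ℕ} (hc : Comb cb L) (b c i : ℕ) (hi : i < L) (l : List ℕ)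
    (hl : ∀ k ∈ l, k.Coprime 30) : val (cnt cb b c l) i = nd l (30 * (b + i) + c) := by
  unfold cnt nd
  rw [sumV_leaf (pat cb b c)]
  congr 1
  refine List.map_congr_left fun k hk => ?_
  rw [pat_spec hc b c k i (hl k hk) hi]

theorem lg_spec (n : ℕ) : n ≤ 2 ^ lg n := by
  have := Nat.lt_log2_self (n := n - 1)
  show n ≤ 2 ^ ((n - 1).log2 + 1)
  omega

theorem dil_spec (w R x0 : ℕ) (hw : 1 ≤ w) (hR : R ≤ 500000) (hx : ∀ i, R * w ≤ i → x0.testBit i = false) (t : ℕ) :
    ∀ y : ℕ, (∀ a b, b < 2 * (w * 2 ^ t) → y.testBit (a * (2 * (w * 2 ^ t)) + b) =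
      (decide (b < w * 2 ^ t) && x0.testBit (a * (w * 2 ^ t) + b))) →
    ∀ a b, b < 2 * w → (dil w R t y).testBit (a * (2 * w) + b) = (decide (b < w) && x0.testBit (a * w + b)) := by
  induction t with
  | zero =>
    intro y h a b hb
    have := h a b (by simpa using hb)
    rw [pow_zero, Nat.mul_one] at this
    exact this
  | succ t ih =>
    intro y h
    refine ih _ ?_
    intro a b hb
    obtain ⟨G, hG⟩ : ∃ G, G = w * 2 ^ t := ⟨_, rfl⟩
    have e1 : Nat.shiftLeft w t = G := by rw [hG]; exact Nat.shiftLeft_eq w t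
    have e2 : Nat.shiftLeft w (Nat.succ t) = 2 * G := by
      rw [hG]; exact (Nat.shiftLeft_eq w (t + 1)).trans (by ring)
    have e3 : w * 2 ^ (t + 1) = 2 * G := by rw [hG]; ring
    have e4 : Nat.shiftRight R t = R / 2 ^ t := Nat.shiftRight_eq_div_pow R t
    have hG1 : 1 ≤ G := by rw [hG]; exact Nat.mul_pos hw (by positivity)
    have hq : R / 2 ^ t ≤ R := Nat.div_le_self _ _
    rw [e3] at h
    rw [← hG] at hb ⊢
    rw [e1, e2, e4, tb_and, tb_or, tb_shl]
    have hm : (rep 20 (ones G) (2 * G) (R / 2 ^ t).succ).testBit (a * (2 * G) + b) =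
        (decide (b < G) && decide (a < R / 2 ^ t + 1)) := by
      rw [Bool.eq_iff_iff, rep_spec _ _ 20 _ _ (by omega) (by omega), Bool.and_eq_true, decide_eq_true_eq,
        decide_eq_true_eq]
      constructor
      · rintro ⟨a', h1, h2, h3⟩
        rw [tb_ones, decide_eq_true_eq] at h3
        have : a' = a := by
          rcases Nat.lt_trichotomy a' a with h4 | h4 | h4
          · have := Nat.mul_le_mul_right (2 * G) (Nat.succ_le_of_lt h4)
            rw [Nat.succ_mul] at this
            omega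
          · exact h4
          · have := Nat.mul_le_mul_right (2 * G) (Nat.succ_le_of_lt h4)
            rw [Nat.succ_mul] at this
            omega
        subst this
        exact ⟨by omega, h1⟩
      · rintro ⟨h1, h2⟩
        exact ⟨a, h2, by omega, by rw [tb_ones]; simpa using h1⟩
    rw [hm]
    by_cases hbG : b < G
    · by_cases ha : a < R / 2 ^ t + 1
      · simp only [hbG, ha, decide_true, Bool.and_true, Bool.true_and]
        obtain ⟨a', rfl | rfl⟩ : ∃ a', a = 2 * a' ∨ a = 2 * a' + 1 := ⟨a / 2, by omega⟩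
        · have f1 := h a' b (by omega)
          have g1 : 2 * a' * (2 * G) + b = a' * (2 * (2 * G)) + b := by ring
          have g2 : 2 * a' * G + b = a' * (2 * G) + b := by ring
          rw [g1, g2, f1]
          rcases Nat.eq_zero_or_pos a' with h0 | h0
          · subst h0
            simp [show b < 2 * G by omega, show ¬ G ≤ b by omega]
          · obtain ⟨a'', rfl⟩ : ∃ a'', a' = a'' + 1 := ⟨a' - 1, by omega⟩
            have f2 := h a'' (3 * G + b) (by omega)
            have g3 : (a'' + 1) * (2 * (2 * G)) + b - G = a'' * (2 * (2 * G)) + (3 * G + b) := by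
              rw [Nat.add_mul]; omega
            rw [g3, f2]
            simp [show b < 2 * G by omega, show ¬ 3 * G + b < 2 * G by omega]
        · have f1 := h a' (2 * G + b) (by omega)
          have f2 := h a' (G + b) (by omega)
          have g1 : (2 * a' + 1) * (2 * G) + b = a' * (2 * (2 * G)) + (2 * G + b) := by ring
          have g2 : (2 * a' + 1) * G + b = a' * (2 * G) + (G + b) := by ring
          have g3 : a' * (2 * (2 * G)) + (2 * G + b) - G = a' * (2 * (2 * G)) + (G + b) := by omega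
          rw [g1, g2, g3, f1, f2]
          simp [show G + b < 2 * G by omega, show G ≤ a' * (2 * (2 * G)) + (2 * G + b) by omega]
      · have h1 : R < (R / 2 ^ t + 1) * 2 ^ t := by
          rw [Nat.mul_comm]; exact Nat.lt_mul_div_succ R (by positivity)
        have h2 : (R / 2 ^ t + 1) * 2 ^ t ≤ a * 2 ^ t := Nat.mul_le_mul_right _ (by omega)
        have h3 : R * w ≤ a * 2 ^ t * w := Nat.mul_le_mul_right _ (by omega)
        have h4 : a * 2 ^ t * w = a * G := by rw [hG]; ring
        rw [hx _ (by omega)]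
        simp [ha]
    · simp [hbG]

theorem dil_row (w R x0 : ℕ) (hw : 1 ≤ w) (hR : R ≤ 500000) (hx : ∀ i, R * w ≤ i → x0.testBit i = false)
    (a b : ℕ) (hb : b < 2 * w) :
    (dil w R (lg R) x0).testBit (a * (2 * w) + b) = (decide (b < w) && x0.testBit (a * w + b)) := by
  refine dil_spec w R x0 hw hR hx (lg R) x0 ?_ a b hb
  intro a b hb
  have h1 : R * w ≤ w * 2 ^ lg R := by rw [Nat.mul_comm]; exact Nat.mul_le_mul_left _ (lg_spec R)
  obtain ⟨G, hG⟩ : ∃ G, G = w * 2 ^ lg R := ⟨_, rfl⟩
  rw [← hG] at h1 hb ⊢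
  rcases Nat.eq_zero_or_pos a with h0 | h0
  · subst h0
    by_cases hbG : b < G
    · simp [hbG]
    · rw [hx _ (by omega)]; simp [hbG]
  · have h2 : 1 * G ≤ a * G := Nat.mul_le_mul_right _ h0
    have h3 : a * (2 * G) = 2 * (a * G) := by ring
    rw [hx _ (by omega), hx _ (by omega)]
    simp

theorem pre_spec (n w u : ℕ) (P : ℕ → ℤ) (hP : P 0 = 0) (hu : u < w) (t : ℕ) : ∀ (d : ℕ) (x : List ℕ), x.length = 9 →
    (∀ a, a * w + u < n → (val x (a * w + u) : ℤ) % 512 = (P (a + 1) - P (a + 1 - d)) % 512) →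
    (pre n t (d * w) x).length = 9 ∧
      ∀ a, a * w + u < n → (val (pre n t (d * w) x) (a * w + u) : ℤ) % 512 =
        (P (a + 1) - P (a + 1 - d * 2 ^ t)) % 512 := by
  induction t with
  | zero => intro d x hx h; rw [pow_zero, Nat.mul_one]; exact ⟨hx, h⟩
  | succ t ih =>
    intro d x hx h
    have e : pre n (t + 1) (d * w) x = pre n t (2 * d * w)
        (addM x (mp (fun p => Nat.shiftLeft (Nat.land p (ones (n - d * w))) (d * w)) x) 0) := by
      rw [show 2 * d * w = d * w + d * w by ring]; rfl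
    rw [e, show d * 2 ^ (t + 1) = 2 * d * 2 ^ t by ring]
    have hl := (len_mp (fun p => Nat.shiftLeft (Nat.land p (ones (n - d * w))) (d * w)) x).trans hx
    refine ih _ _ (len_addM hx hl) ?_
    intro a ha
    rw [val_addM hx hl]
    have h1 := h a ha
    by_cases hc : d ≤ a
    · obtain ⟨b, rfl⟩ : ∃ b, a = b + d := ⟨a - d, by omega⟩
      rw [Nat.add_mul] at ha
      have h2 := h b (by omega)
      rw [val_mp' _ _ (b * w + u) (by
        intro p
        rw [tb_shl, tb_and, tb_ones, Nat.add_mul, show b * w + d * w + u - d * w = b * w + u by omega]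
        simp [show b * w + u < n - d * w by omega, show d * w ≤ b * w + d * w + u by omega])]
      rw [show b + d + 1 - d = b + 1 by omega] at h1
      rw [show b + d + 1 - 2 * d = b + 1 - d by omega]
      omega
    · have h3 : (a + 1) * w ≤ d * w := Nat.mul_le_mul_right _ (by omega)
      rw [Nat.add_mul] at h3
      rw [val_mp0 _ _ (by
        intro p
        rw [tb_shl]
        simp [show ¬ d * w ≤ a * w + u by omega])]
      rw [show a + 1 - d = 0 by omega] at h1
      rw [show a + 1 - 2 * d = 0 by omega]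
      omega

theorem fold_succ (op : List ℕ → List ℕ → List ℕ) (w t R : ℕ) (x : List ℕ) : fold op w (t + 1) R x =
    fold op w t ((R + 1) / 2) (op (mp (Nat.land (ones ((R + 1) / 2 * w))) x)
      (mp (fun p => Nat.shiftRight p ((R + 1) / 2 * w)) x)) := by
  rw [← Nat.shiftRight_one]; rfl

theorem val_lo (n i : ℕ) (h : i < n) (x : List ℕ) : val (mp (Nat.land (ones n)) x) i = val x i :=
  val_mp' _ _ _ (by intro p; rw [tb_and, tb_ones]; simp [h]) x

theorem val_hi (n i : ℕ) (x : List ℕ) : val (mp (fun p => Nat.shiftRight p n) x) i = val x (n + i) :=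
  val_mp' _ _ _ (by intro p; rw [tb_shr]) x

theorem fold_max (w u : ℕ) (hu : u < w) (t : ℕ) : ∀ (R : ℕ) (x : List ℕ), R ≤ 2 ^ t →
    (fold maxP w t R x).length = x.length ∧ ∀ a < R, val x (a * w + u) ≤ val (fold maxP w t R x) u := by
  induction t with
  | zero =>
    intro R x h
    refine ⟨rfl, fun a ha => ?_⟩
    have : a = 0 := by omega
    subst this
    rw [Nat.zero_mul, Nat.zero_add]
    exact le_rfl
  | succ t ih =>
    intro R x h
    rw [fold_succ]
    have hl : (mp (Nat.land (ones ((R + 1) / 2 * w))) x).length =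
        (mp (fun p => Nat.shiftRight p ((R + 1) / 2 * w)) x).length := by rw [len_mp, len_mp]
    obtain ⟨h1, h2⟩ := ih ((R + 1) / 2) (maxP (mp (Nat.land (ones ((R + 1) / 2 * w))) x)
      (mp (fun p => Nat.shiftRight p ((R + 1) / 2 * w)) x)) (by omega)
    refine ⟨by rw [h1, len_maxP hl, len_mp], fun a ha => ?_⟩
    by_cases hc : a < (R + 1) / 2
    · refine le_trans ?_ (h2 a hc)
      refine le_trans (le_of_eq ?_) (val_maxP hl _).1
      have := Nat.mul_le_mul_right w (Nat.succ_le_of_lt hc)
      rw [Nat.succ_mul] at this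
      rw [val_lo _ _ (by omega)]
    · obtain ⟨b, rfl⟩ : ∃ b, a = (R + 1) / 2 + b := ⟨a - (R + 1) / 2, by omega⟩
      refine le_trans ?_ (h2 b (by omega))
      refine le_trans (le_of_eq ?_) (val_maxP hl _).2
      rw [val_hi, Nat.add_mul, Nat.add_assoc]

theorem fold_add (t : ℕ) : ∀ (R : ℕ) (x : List ℕ), R ≤ 2 ^ t →
    ∑ a ∈ Finset.range R, val x a ≤ val (fold (fun x y => addC x y 0) 1 t R x) 0 := by
  induction t with
  | zero =>
    intro R x h
    have : R = 0 ∨ R = 1 := by omega
    rcases this with rfl | rfl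
    · simp
    · simp [fold]
  | succ t ih =>
    intro R x h
    rw [fold_succ]
    refine le_trans ?_ (ih _ _ (by omega))
    have e : ∑ a ∈ Finset.range ((R + 1) / 2), val (addC (mp (Nat.land (ones ((R + 1) / 2 * 1))) x)
        (mp (fun p => Nat.shiftRight p ((R + 1) / 2 * 1)) x) 0) a =
        ∑ a ∈ Finset.range ((R + 1) / 2 + (R + 1) / 2), val x a := by
      rw [Finset.sum_range_add, ← Finset.sum_add_distrib]
      refine Finset.sum_congr rfl fun a ha => ?_
      rw [val_addC0, Nat.mul_one, val_lo _ _ (Finset.mem_range.1 ha), val_hi]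
    rw [e]
    exact Finset.sum_le_sum_of_subset (Finset.range_subset_range.2 (by omega))

theorem csum_spec (w : ℕ) (a : List ℕ) : ∑ u ∈ Finset.range w, val a u ≤ csum w a := by
  unfold csum
  rw [num_eq]
  exact fold_add _ _ _ (lg_spec w)

theorem bmax_spec (w u a n : ℕ) (hu : u < w) (X : List ℕ) :
    (bmax w a n X).length = X.length ∧ ∀ b < n, val X ((a + b) * w + u) ≤ val (bmax w a n X) u := by
  obtain ⟨h1, h2⟩ := fold_max w u hu (lg n) n (mp (win (Nat.mul a w) (Nat.mul n w)) X) (lg_spec n)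
  refine ⟨h1.trans (len_mp _ _), fun b hb => le_trans (le_of_eq ?_) (h2 b hb)⟩
  refine (val_mp' _ _ _ (fun p => ?_) X).symm
  have := Nat.mul_le_mul_right w (Nat.succ_le_of_lt hb)
  rw [Nat.succ_mul] at this
  rw [tb_win]
  show (decide (b * w + u < n * w) && p.testBit (a * w + (b * w + u))) = _
  rw [Nat.add_mul, Nat.add_assoc]
  simp [show b * w + u < n * w by omega]

end Cfsg.Agent.Depth.P.T
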