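import Cfsg.Agent.Depth.P.T.Wlk

/-!
# Depth (S5768): the bit-sliced machine for the tables (helper45), soundness
-/

set_option autoImplicit false

namespace Cfsg.Agent.Depth.P.T

open Finset

/-- a block for the classes `cs` modulo `30` -/
def BlkL (c W K Ap Am : ℕ) (cs : List ℕ) (s0 s1 sp sm : ℕ) : Prop :=
  ∃ M m : ℕ → ℕ,
    (∀ r n, r < W → r.Coprime W → r % 30 ∈ cs → c * s0 * W ≤ n → n < c * s1 * W →
      -(m r : ℤ) ≤ DD c W K Ap Am r n ∧ DD c W K Ap Am r n ≤ M r) ∧
    (∀ r, M r ≤ 160 ∧ m r ≤ 160) ∧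
    ∑ r ∈ (range W).filter (fun r => r % 30 ∈ cs), M r ≤ sp ∧
    ∑ r ∈ (range W).filter (fun r => r % 30 ∈ cs), m r ≤ sm

/-- a chain of blocks for the classes `cs` -/
def TabL (c W K Ap Am : ℕ) (cs : List ℕ) : ℕ → List (ℕ × ℕ × ℕ) → Prop
  | _, [] => True
  | s, b :: t => BlkL c W K Ap Am cs s b.1 b.2.1 b.2.2 ∧ TabL c W K Ap Am cs b.1 t

theorem TabL_realised : True := by have := @TabL.eq_def; trivial

theorem pos_spec {m : ℕ} {X : List ℕ} (hX : X.length = 9) {u : ℕ} (hu : m.testBit u = true) :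
    val X u ≤ 256 + val (pos m X) u ∧ val X u ≤ 255 + (val (pos m X) u + ((top m X).testBit u).toNat) := by
  have f1 := val_fix_drp 8 X u
  have f2 := val_lt (fixN 8 X) u
  have f3 := val_hd (a := drp 8 X) (by rw [len_drp, hX]) u
  have f4 : (top m X).testBit u = (hd (drp 8 X)).testBit u := by
    unfold top
    rw [tb_and, hu, Bool.true_and]
  have f5 : val (pos m X) u = _ := val_mp _ ((top m X).testBit u) u u (fun x => tb_and _ x u) (fixN 8 X)
  rw [len_fixN] at f2
  rw [← f4] at f3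
  cases h : (top m X).testBit u
  · rw [h] at f3 f5
    simp at f3 f5 ⊢
    omega
  · rw [h] at f3 f5
    simp at f3 f5 ⊢
    omega

theorem sum_cls (w c : ℕ) (f : ℕ → ℕ) :
    ∑ r ∈ (range (30 * w)).filter (fun r => r % 30 ∈ [c]), f (r / 30) ≤ ∑ u ∈ range w, f u := by
  rw [← sum_image (s := (range (30 * w)).filter (fun r => r % 30 ∈ [c])) (g := fun r => r / 30) (f := f) ?_]
  · refine sum_le_sum_of_subset fun u hu => ?_
    obtain ⟨r, hr, rfl⟩ := mem_image.1 hu
    have := mem_range.1 (mem_filter.1 hr).1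
    exact mem_range.2 (by omega)
  · intro a ha b hb h
    have h1 := List.mem_singleton.1 (mem_filter.1 ha).2
    have h2 := List.mem_singleton.1 (mem_filter.1 hb).2
    simp only at h
    omega

theorem half_row {W r n : ℕ} (hr : r < W) :
    (n / 2 + W - r) / W = (n + W - r) / W / 2 ∨ (n / 2 + W - r) / W = ((n + W - r) / W + 1) / 2 := by
  obtain ⟨a, ha⟩ : ∃ a, a = (n + W - r) / W := ⟨_, rfl⟩
  obtain ⟨b, hb⟩ : ∃ b, b = (n / 2 + W - r) / W := ⟨_, rfl⟩
  rw [← ha, ← hb]
  have h1 := (Nat.div_eq_iff (by omega : 0 < W)).1 ha.symm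
  have h2 := (Nat.div_eq_iff (by omega : 0 < W)).1 hb.symm
  have h3 : a / 2 ≤ b := by
    by_contra h
    have := Nat.mul_le_mul_right W (show 2 * b + 2 ≤ a by omega)
    rw [Nat.add_mul, Nat.mul_assoc] at this
    omega
  have h4 : b ≤ (a + 1) / 2 := by
    by_contra h
    have := Nat.mul_le_mul_right W (show a + 2 ≤ 2 * b by omega)
    rw [Nat.add_mul, Nat.mul_assoc] at this
    omega
  omega

section snd

variable {K Ap Am : ℕ} {S : Seg} {J : Job} {D : Dyn}

theorem blk_spec (h1 : ee K Ap Am 1 = 1)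
    (hW : ∀ u < J.w, (30 * u + S.c).Coprime (30 * J.w) → ∀ a ≤ 2 * D.R,
      (val (v1 S J D) (a * J.w + u) : ℤ) = TT K Ap Am J D (30 * u + S.c) a + 256 ∧
      (val (v2 S J D) (a * J.w + u) : ℤ) = TT K Ap Am J D (30 * u + S.c) a - Dl K Ap Am J D (30 * u + S.c) a + 256)
    {s s' sp sm : ℕ} (k2 : 2 * D.sa ≤ J.c * s) (k3 : J.c * s' ≤ 2 * (D.sa + D.R))
    (k4 : okb J.w (cm S J) (bmax J.w (J.c * s - 2 * D.sa) (J.c * (s' - s) + 1) (vX S J D))
      (bmax J.w (J.c * s - 2 * D.sa) (J.c * (s' - s) + 1) (vY S J D)) sp sm = true) :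
    BlkL J.c (30 * J.w) K Ap Am [S.c] s s' sp sm := by
  obtain ⟨X, hX⟩ : ∃ X, X = bmax J.w (J.c * s - 2 * D.sa) (J.c * (s' - s) + 1) (vX S J D) := ⟨_, rfl⟩
  obtain ⟨Y, hY⟩ : ∃ Y, Y = bmax J.w (J.c * s - 2 * D.sa) (J.c * (s' - s) + 1) (vY S J D) := ⟨_, rfl⟩
  rw [← hX, ← hY] at k4
  unfold okb at k4
  simp only [Bool.and_eq_true, beq_t, ble_t] at k4
  obtain ⟨⟨⟨b1, b2⟩, b3⟩, b4⟩ := k4
  have lp : ∀ Z, (pos (cm S J) Z).length = 8 := fun Z => (len_mp _ _).trans (len_fixN _ _)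
  have c1 : ∀ u < J.w, val (pos (cm S J) X) u ≤ 160 ∧ val (addH (pos (cm S J) Y) (top (cm S J) Y)) u ≤ 160 := by
    intro u hu
    have o : (ones J.w).testBit u = true := by rw [tb_ones]; simpa using hu
    have e1 := gtP_zero ((lp X).trans (len_cst (ones J.w) 8 160).symm) (i := u) (by rw [b1]; simp)
    have e2 := gtP_zero ((lp Y).trans (len_cst (ones J.w) 8 159).symm) (i := u) (by rw [b2]; simp)
    rw [val_cst _ _ _ o _ (by norm_num)] at e1 e2
    have := Bool.toNat_le ((top (cm S J) Y).testBit u)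
    rw [val_addH]
    omega
  refine ⟨fun r => min 160 (val (pos (cm S J) X) (r / 30)),
    fun r => min 160 (val (addH (pos (cm S J) Y) (top (cm S J) Y)) (r / 30)), ?_,
    fun r => ⟨min_le_left _ _, min_le_left _ _⟩, ?_, ?_⟩
  · intro r n hr hco hm n1 n2
    have hm := List.mem_singleton.1 hm
    obtain ⟨u, hu⟩ : ∃ u, u = r / 30 := ⟨_, rfl⟩
    have er : r = 30 * u + S.c := by omega
    have huw : u < J.w := by omega
    have hr1 : 1 ≤ r := by
      rcases Nat.eq_zero_or_pos r with h | h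
      · rw [h, Nat.coprime_zero_left] at hco; omega
      · exact h
    simp only [← hu]
    rw [min_eq_right (c1 u huw).1, min_eq_right (c1 u huw).2]
    obtain ⟨al, hal⟩ : ∃ al, al = (n + 30 * J.w - r) / (30 * J.w) := ⟨_, rfl⟩
    have a0 := (Nat.div_eq_iff (by omega : 0 < 30 * J.w)).1 hal.symm
    have a1 : J.c * s ≤ al := by
      by_contra h
      have := Nat.mul_le_mul_right (30 * J.w) (show al + 1 ≤ J.c * s by omega)
      rw [Nat.add_mul] at this
      omega
    have a2 : al ≤ J.c * s' := by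
      by_contra h
      have := Nat.mul_le_mul_right (30 * J.w) (show J.c * s' + 1 ≤ al by omega)
      rw [Nat.add_mul] at this
      omega
    have a3 : J.c * (s' - s) = J.c * s' - J.c * s := Nat.mul_sub _ _ _
    obtain ⟨a, ha⟩ : ∃ a, a = al - 2 * D.sa := ⟨_, rfl⟩
    have a4 : J.c * s - 2 * D.sa + (al - J.c * s) = a := by omega
    obtain ⟨w1, w2⟩ := hW u huw (er ▸ hco) a (by omega)
    have lv : (v1 S J D).length = (v2 S J D).length := len_v1.trans len_v2.symm
    have lc : (mp (Nat.xor (ones (nV J D))) (v1 S J D)).length = (mp (Nat.xor (ones (nV J D))) (v2 S J D)).length := by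
      rw [len_mp, len_mp, lv]
    obtain ⟨x1, x2⟩ := bmax_spec J.w u (J.c * s - 2 * D.sa) (J.c * (s' - s) + 1) huw (vX S J D)
    obtain ⟨y1, y2⟩ := bmax_spec J.w u (J.c * s - 2 * D.sa) (J.c * (s' - s) + 1) huw (vY S J D)
    have x3 := x2 (al - J.c * s) (by omega)
    have y3 := y2 (al - J.c * s) (by omega)
    rw [a4, ← hX] at x3
    rw [a4, ← hY] at y3
    rw [← hX] at x1
    rw [← hY] at y1
    have x4 : _ ≤ val (vX S J D) _ ∧ _ ≤ val (vX S J D) _ := val_maxP lv (a * J.w + u)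
    have y4 : _ ≤ val (vY S J D) _ ∧ _ ≤ val (vY S J D) _ := val_maxP lc (a * J.w + u)
    have lt : a * J.w + u < nV J D := by
      have e : nV J D = 2 * D.R * J.w + J.w := Nat.succ_mul _ _
      have := Nat.mul_le_mul_right J.w (show a ≤ 2 * D.R by omega)
      omega
    have y5 := val_cpl _ _ lt (v1 S J D)
    have y6 := val_cpl _ _ lt (v2 S J D)
    rw [len_v1] at y5
    rw [len_v2] at y6
    have mu : (cm S J).testBit u = true := tb_cmask _ _ _ u huw (er ▸ hco)
    have x7 := (pos_spec (x1.trans ((len_maxP lv).trans len_v1)) mu).1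
    have y7 := (pos_spec (y1.trans ((len_maxP lc).trans ((len_mp _ _).trans len_v1))) mu).2
    rw [← val_addH] at y7
    have dd : DD J.c (30 * J.w) K Ap Am r n = TT K Ap Am J D r a ∨
        DD J.c (30 * J.w) K Ap Am r n = TT K Ap Am J D r a - Dl K Ap Am J D r a := by
      rw [TT_Dl]
      unfold DD TT
      rw [EE_eq _ _ _ _ _ h1 hr1 hr, EE_eq _ _ _ _ _ h1 hr1 hr, ← hal, show 2 * D.sa + a = al by omega]
      rcases half_row (n := n) hr with h | h
      · left; rw [h, ← hal, show D.sa + a / 2 = al / 2 by omega]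
      · right; rw [h, ← hal, show D.sa + (a + 1) / 2 = (al + 1) / 2 by omega]
    rw [← er] at w1 w2
    omega
  · refine le_trans (sum_le_sum fun r _ => min_le_right _ _) ?_
    exact (sum_cls J.w S.c _).trans ((csum_spec _ _).trans b3)
  · refine le_trans (sum_le_sum fun r _ => min_le_right _ _) ?_
    exact (sum_cls J.w S.c _).trans ((csum_spec _ _).trans b4)

theorem okJ_spec (hT : Trm (30 * J.w) K Ap Am S.lp S.lm J.xp J.xm) (hk : okJ S J D = true)
    (h0 : St K Ap Am J S.c D.sa D.s) :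
    St K Ap Am J S.c (D.sa + D.R) D.s' ∧ TabL J.c (30 * J.w) K Ap Am [S.c] (2 * D.sa / J.c) D.bl := by
  unfold okJ at hk
  simp only [Bool.and_eq_true, ble_t] at hk
  obtain ⟨⟨⟨⟨k1, k2⟩, k3⟩, k4⟩, k5⟩ := hk
  obtain ⟨w1, w2⟩ := walk_spec hT ⟨k1, k2, k3⟩ k4 h0
  refine ⟨w1, ?_⟩
  change okl S J D D.bl (2 * D.sa / J.c) = true at k5
  generalize 2 * D.sa / J.c = s at k5 ⊢
  generalize D.bl = l at k5 ⊢
  induction l generalizing s with
  | nil => trivial
  | cons b t ih =>
    obtain ⟨s', sp, sm⟩ := b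
    change (Nat.ble s s' && Nat.ble (2 * D.sa) (J.c * s) && Nat.ble (J.c * s') (2 * (D.sa + D.R)) &&
      okb J.w (cm S J) (bmax J.w (J.c * s - 2 * D.sa) (J.c * (s' - s) + 1) (vX S J D))
        (bmax J.w (J.c * s - 2 * D.sa) (J.c * (s' - s) + 1) (vY S J D)) sp sm && okl S J D t s') = true at k5
    simp only [Bool.and_eq_true, ble_t] at k5
    obtain ⟨⟨⟨⟨-, j2⟩, j3⟩, j4⟩, j5⟩ := k5
    exact ⟨blk_spec hT.one w2 j2 j3 j4, ih s' j5⟩

end snd

/-- the last row -/
def lastR : ℕ → List (ℕ × ℕ × ℕ) → ℕ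
  | s, [] => s
  | _, b :: t => lastR b.1 t

theorem lastR_realised : True := by have := @lastR.eq_def; trivial

theorem TabL_append {c W K Ap Am : ℕ} {cs : List ℕ} (l l' : List (ℕ × ℕ × ℕ)) :
    ∀ s, TabL c W K Ap Am cs s l → TabL c W K Ap Am cs (lastR s l) l' → TabL c W K Ap Am cs s (l ++ l') := by
  induction l with
  | nil => intro s _ h; exact h
  | cons b t ih => intro s h h'; exact ⟨h.1, ih _ h.2 h'⟩

/-- all segments pass -/
def AllOk (J : Job) (lp lm : List ℕ) : List (Seg × Dyn) → Prop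
  | [] => True
  | x :: t => okJ x.1 J x.2 = true ∧ x.1.lp = lp ∧ x.1.lm = lm ∧ AllOk J lp lm t

theorem AllOk_realised : True := by have := @AllOk.eq_def; trivial

/-- the segments fit together -/
def lnk (J : Job) (c : ℕ) : List (Seg × Dyn) → ℕ → ℕ → Bool
  | [], _, _ => true
  | x :: t, sa, s => Nat.beq x.1.c c && Nat.beq x.2.sa sa && Nat.beq x.2.s s &&
      Nat.beq (lastR (2 * sa / J.c) x.2.bl) (2 * (sa + x.2.R) / J.c) && lnk J c t (sa + x.2.R) x.2.s'

theorem lnk_realised : True := by have := @lnk.eq_def; trivial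

/-- the blocks of all segments -/
def flat : List (Seg × Dyn) → List (ℕ × ℕ × ℕ)
  | [] => []
  | x :: t => x.2.bl ++ flat t

theorem flat_realised : True := by have := @flat.eq_def; trivial

theorem chain {K Ap Am : ℕ} {J : Job} {lp lm : List ℕ} (hT : Trm (30 * J.w) K Ap Am lp lm J.xp J.xm)
    (c : ℕ) (l : List (Seg × Dyn)) : ∀ sa s, AllOk J lp lm l → lnk J c l sa s = true →
    St K Ap Am J c sa s → TabL J.c (30 * J.w) K Ap Am [c] (2 * sa / J.c) (flat l) := by
  induction l with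
  | nil => intro _ _ _ _ _; trivial
  | cons x t ih =>
    rintro sa s ⟨a1, rfl, rfl, a4⟩ h h0
    unfold lnk at h
    simp only [Bool.and_eq_true, beq_t] at h
    obtain ⟨⟨⟨⟨rfl, rfl⟩, rfl⟩, b4⟩, b5⟩ := h
    obtain ⟨w1, w2⟩ := okJ_spec hT a1 h0
    exact TabL_append _ _ _ w2 (b4 ▸ ih _ _ a4 b5 w1)

/-- the same rows and smaller sums -/
def leB : List (ℕ × ℕ × ℕ) → List (ℕ × ℕ × ℕ) → Bool
  | [], [] => true
  | a :: s, b :: t => Nat.beq a.1 b.1 && Nat.ble a.2.1 b.2.1 && Nat.ble a.2.2 b.2.2 && leB s t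
  | _, _ => false

theorem leB_realised : True := by have := @leB.eq_def; trivial

/-- the rest of the sums -/
def subB : List (ℕ × ℕ × ℕ) → List (ℕ × ℕ × ℕ) → List (ℕ × ℕ × ℕ)
  | a :: s, b :: t => (b.1, b.2.1 - a.2.1, b.2.2 - a.2.2) :: subB s t
  | _, _ => []

theorem subB_realised : True := by have := @subB.eq_def; trivial

theorem BlkL_merge {c W K Ap Am x : ℕ} {cs : List ℕ} {s0 s1 sp sm sp' sm' : ℕ}
    (h : BlkL c W K Ap Am [x] s0 s1 sp sm) (h' : BlkL c W K Ap Am cs s0 s1 sp' sm') :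
    BlkL c W K Ap Am (x :: cs) s0 s1 (sp + sp') (sm + sm') := by
  obtain ⟨M, m, a1, a2, a3, a4⟩ := h
  obtain ⟨M', m', b1, b2, b3, b4⟩ := h'
  have key : ∀ f g : ℕ → ℕ, ∑ r ∈ (range W).filter (fun r => r % 30 ∈ x :: cs), (if r % 30 = x then f r else g r) ≤
      ∑ r ∈ (range W).filter (fun r => r % 30 ∈ [x]), f r + ∑ r ∈ (range W).filter (fun r => r % 30 ∈ cs), g r := by
    intro f g
    rw [sum_filter, sum_filter, sum_filter, ← sum_add_distrib]
    refine sum_le_sum fun r _ => ?_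
    by_cases h1 : r % 30 = x
    · simp [h1]
    · simp [h1]
  refine ⟨fun r => if r % 30 = x then M r else M' r, fun r => if r % 30 = x then m r else m' r, ?_, ?_,
    (key _ _).trans (Nat.add_le_add a3 b3), (key _ _).trans (Nat.add_le_add a4 b4)⟩
  · intro r n hr hco hm n1 n2
    by_cases h1 : r % 30 = x
    · simp only [h1, if_true]
      exact a1 r n hr hco (List.mem_singleton.2 h1) n1 n2
    · simp only [h1, if_false]
      exact b1 r n hr hco ((List.mem_cons.1 hm).resolve_left h1) n1 n2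
  · intro r
    by_cases h1 : r % 30 = x
    · simp only [h1, if_true]; exact a2 r
    · simp only [h1, if_false]; exact b2 r

theorem TabL_merge {c W K Ap Am x : ℕ} {cs : List ℕ} (a : List (ℕ × ℕ × ℕ)) : ∀ (b : List (ℕ × ℕ × ℕ)) (s : ℕ),
    leB a b = true → TabL c W K Ap Am [x] s a → TabL c W K Ap Am cs s (subB a b) →
    TabL c W K Ap Am (x :: cs) s b := by
  induction a with
  | nil =>
    intro b s h _ _
    cases b with
    | nil => trivial
    | cons y ys => cases h
  | cons p ps ih =>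
    intro b s h h1 h2
    cases b with
    | nil => trivial
    | cons y ys =>
      unfold leB at h
      simp only [Bool.and_eq_true, beq_t, ble_t] at h
      obtain ⟨⟨⟨e1, e2⟩, e3⟩, e4⟩ := h
      obtain ⟨u1, u2⟩ := h1
      obtain ⟨v1, v2⟩ := h2
      rw [e1] at u1 u2
      have := BlkL_merge u1 v1
      simp only [Nat.add_sub_cancel' e2, Nat.add_sub_cancel' e3] at this
      exact ⟨this, ih ys _ e4 u2 v2⟩

theorem TabL_nil {c W K Ap Am : ℕ} (b : List (ℕ × ℕ × ℕ)) : ∀ s, TabL c W K Ap Am [] s b := by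
  induction b with
  | nil => intro _; trivial
  | cons y ys ih => intro s; exact ⟨⟨fun _ => 0, fun _ => 0, by simp, by simp, by simp, by simp⟩, ih _⟩

theorem TabL_all {c w K Ap Am : ℕ} (b : List (ℕ × ℕ × ℕ)) :
    ∀ s, TabL c (30 * w) K Ap Am [1, 7, 11, 13, 17, 19, 23, 29] s b → Tab c (30 * w) K Ap Am s b := by
  have key : ∀ r : ℕ, r.Coprime (30 * w) → r % 30 ∈ [1, 7, 11, 13, 17, 19, 23, 29] := by
    intro r hr
    have h1 : ∀ x < 30, Nat.gcd x 30 = 1 → x ∈ [1, 7, 11, 13, 17, 19, 23, 29] := by decide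
    refine h1 _ (Nat.mod_lt _ (by norm_num)) ?_
    rw [← Nat.gcd_rec, Nat.gcd_comm]
    exact Nat.Coprime.coprime_mul_right_right hr
  induction b with
  | nil => intro _ _; trivial
  | cons y ys ih =>
    rintro s ⟨⟨M, m, a1, a2, a3, a4⟩, h⟩
    have sub : (range (30 * w)).filter (fun r => r.Coprime (30 * w)) ⊆
        (range (30 * w)).filter (fun r => r % 30 ∈ [1, 7, 11, 13, 17, 19, 23, 29]) :=
      monotone_filter_right _ fun r _ hr => key r hr
    exact ⟨⟨M, m, fun r n hr hc => a1 r n hr hc (key r hc), fun r _ _ => a2 r,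
      (sum_le_sum_of_subset sub).trans a3, (sum_le_sum_of_subset sub).trans a4⟩, ih _ h⟩

/-- all classes pass -/
def AllAll (J : Job) (lp lm : List ℕ) : List (ℕ × List (Seg × Dyn)) → Prop
  | [] => True
  | x :: t => AllOk J lp lm x.2 ∧ AllAll J lp lm t

theorem AllAll_realised : True := by have := @AllAll.eq_def; trivial

/-- the classes fit together -/
def okM (J : Job) (s : ℕ) : List (ℕ × List (Seg × Dyn)) → List (ℕ × ℕ × ℕ) → Bool
  | [], _ => true
  | x :: t, b => lnk J x.1 x.2 0 s && leB (flat x.2) b && okM J s t (subB (flat x.2) b)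

theorem okM_realised : True := by have := @okM.eq_def; trivial

theorem tab_of {K Ap Am : ℕ} {J : Job} {lp lm : List ℕ} (hT : Trm (30 * J.w) K Ap Am lp lm J.xp J.xm)
    (s : ℕ) (hs : eqL (unp J.w 9 s) (cst (ones J.w) 9 256) = true)
    (l : List (ℕ × List (Seg × Dyn))) (hl : l.map Prod.fst = [1, 7, 11, 13, 17, 19, 23, 29]) (b : List (ℕ × ℕ × ℕ))
    (h1 : AllAll J lp lm l) (h2 : okM J s l b = true) : Tab J.c (30 * J.w) K Ap Am 0 b := by
  refine TabL_all b 0 ?_
  rw [← hl]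
  clear hl
  have h0 : ∀ c, St K Ap Am J c 0 s := by
    intro c u hu _
    rw [eqL_eq _ _ hs, val_cst _ _ _ (by rw [tb_ones]; simpa using hu) _ (by norm_num)]
    simp [GG]
  induction l generalizing b with
  | nil => exact TabL_nil b 0
  | cons x t ih =>
    unfold okM at h2
    simp only [Bool.and_eq_true] at h2
    have := chain hT x.1 x.2 0 s h1.1 h2.1.1 (h0 _)
    rw [Nat.mul_zero, Nat.zero_div] at this
    exact TabL_merge _ _ _ h2.1.2 this (ih _ h1.2 h2.2)

/-- the mask of a list -/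
noncomputable def mk (W : ℕ) (l : List ℕ) : List ℕ :=
  sumV 12 (List.rec [] (fun k _ ih => [Bool.rec 0 (Nat.shiftLeft 1 k) (Nat.beq (Nat.gcd k W) 1)] :: ih) l)

/-- all terms are prime to `30` and at most `K` -/
noncomputable def allK (K : ℕ) (l : List ℕ) : Bool :=
  List.rec true (fun k _ ih => Bool.rec false (Bool.rec false ih (Nat.ble k K)) (Nat.beq (Nat.gcd k 30) 1)) l

theorem allK_spec {K : ℕ} {l : List ℕ} (h : allK K l = true) : ∀ k ∈ l, k.Coprime 30 ∧ k ≤ K := by
  induction l with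
  | nil => intro k hk; cases hk
  | cons x xs ih =>
    change Bool.rec false (Bool.rec false (allK K xs) (Nat.ble x K)) (Nat.beq (Nat.gcd x 30) 1) = true at h
    rw [brec, brec] at h
    split at h
    · next h1 =>
      split at h
      · next h2 =>
        intro k hk
        rcases List.mem_cons.1 hk with rfl | hk
        · exact ⟨(beq_t _ _).1 h1, (ble_t _ _).1 h2⟩
        · exact ih h k hk
      · cases h
    · cases h

theorem mk_spec {W K j : ℕ} (hj : j.Coprime W) {l : List ℕ} (hl : ∀ k ∈ l, k.Coprime 30 ∧ k ≤ K) :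
    ∑ i ∈ (Icc 1 K).filter (fun k => k ∣ j), val (mk W l) i = nd l j := by
  unfold mk nd
  simp only [sumV_leaf (fun k => Bool.rec 0 (Nat.shiftLeft 1 k) (Nat.beq (Nat.gcd k W) 1))]
  induction l with
  | nil => simp
  | cons x xs ih =>
    simp only [List.map_cons, List.sum_cons]
    rw [sum_add_distrib, ih (fun k hk => hl k (List.mem_cons_of_mem _ hk))]
    congr 1
    obtain ⟨h1, h2⟩ := hl x List.mem_cons_self
    have h3 : 1 ≤ x := by
      rcases Nat.eq_zero_or_pos x with h | h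
      · subst h; simp at h1
      · exact h
    have h4 : ∀ i, i ≠ x → ((Bool.rec 0 (Nat.shiftLeft 1 x) (Nat.beq (Nat.gcd x W) 1) : ℕ).testBit i).toNat = 0 := by
      intro i hi
      rw [brec]
      split
      · rw [tb_shl]
        by_cases h : x ≤ i
        · cases hb : Nat.testBit 1 (i - x)
          · simp
          · have := (tb_one _).1 hb
            omega
        · simp [h]
      · simp
    by_cases h : x ∣ j
    · rw [sum_eq_single_of_mem x (mem_filter.2 ⟨mem_Icc.2 ⟨h3, h2⟩, h⟩) (fun i _ hi => h4 i hi), brec,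
        if_pos ((beq_t _ _).2 (Nat.Coprime.coprime_dvd_left h hj)), tb_shl]
      simp [h]
    · rw [sum_eq_zero fun i hi => h4 i (by rintro rfl; exact h (mem_filter.1 hi).2)]
      simp [h]

/-- the check of the lists -/
noncomputable def okT (W K Ap Am : ℕ) (lp lm xp xm : List ℕ) : Bool :=
  allK K lp && allK K lm && allK K xp && allK K xm && eqL (addC (mk W lp) (mk W xp) 0) [Ap] &&
    eqL (addC (mk W lm) (mk W xm) 0) [Am] && Nat.ble 1 K && Nat.testBit Ap 1 && !Nat.testBit Am 1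

theorem okT_spec {W K Ap Am : ℕ} {lp lm xp xm : List ℕ} (h : okT W K Ap Am lp lm xp xm = true) :
    Trm W K Ap Am lp lm xp xm := by
  unfold okT at h
  simp only [Bool.and_eq_true, ble_t, Bool.not_eq_true'] at h
  obtain ⟨⟨⟨⟨⟨⟨⟨⟨a1, a2⟩, a3⟩, a4⟩, a5⟩, a6⟩, a7⟩, a8⟩, a9⟩ := h
  have key : ∀ (A : ℕ) (l x : List ℕ), allK K l = true → allK K x = true → eqL (addC (mk W l) (mk W x) 0) [A] = true →
      ∀ j : ℕ, j.Coprime W → ∑ k ∈ (Icc 1 K).filter (fun k => k ∣ j), (if A.testBit k then 1 else 0 : ℤ) =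
        nd l j + nd x j := by
    intro A l x b1 b2 b3 j hj
    rw [← mk_spec hj (allK_spec b1), ← mk_spec hj (allK_spec b2)]
    push_cast
    rw [← sum_add_distrib]
    refine sum_congr rfl fun i _ => ?_
    have := val_addC0 (mk W l) (mk W x) i
    rw [eqL_eq _ _ b3, val_cons, val_nil] at this
    cases hb : A.testBit i
    · rw [hb] at this; simp at this ⊢; omega
    · rw [hb] at this; simp at this ⊢; omega
  refine ⟨fun k hk => (allK_spec a1 k hk).1, fun k hk => (allK_spec a2 k hk).1, fun k hk => (allK_spec a3 k hk).1,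
    fun k hk => (allK_spec a4 k hk).1, fun j hj => ?_, ?_⟩
  · rw [← key Ap lp xp a1 a3 a5 j hj, ← key Am lm xm a2 a4 a6 j hj, ← sum_sub_distrib]
    rfl
  · unfold ee
    rw [sum_eq_single_of_mem (s := (Icc 1 K).filter (fun k => k ∣ 1)) 1
      (mem_filter.2 ⟨mem_Icc.2 ⟨le_rfl, a7⟩, dvd_rfl⟩)
      (fun i hi h1 => absurd (Nat.dvd_one.1 (mem_filter.1 hi).2) h1)]
    simp [aa, a8, a9]

end Cfsg.Agent.Depth.P.T
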