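import Cfsg.Agent.Depth.P.T.Snd
import Cfsg.Agent.Depth.P.Dat
import Cfsg.Agent.Depth.P.T.Lst

/-!
# Depth (S5768): the lists describe the coefficients (helper45; generated by `notes/Depth/P45_emit3.py.txt`)
-/

set_option autoImplicit false
set_option maxRecDepth 100000
set_option Elab.async false

namespace Cfsg.Agent.Depth.P.T

theorem trm60 : Trm 60 23000 Ap60 Am60 lp lm xp60 xm60 := okT_spec (by decide +kernel)

theorem trm120 : Trm 120 23000 Ap60 Am60 lp lm xp60 xm60 := okT_spec (by decide +kernel)

theorem trm840 : Trm 840 34000 Ap840 Am840 lp lm xp840 xm840 := okT_spec (by decide +kernel)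

theorem trm1320 : Trm 1320 23000 Ap1320 Am1320 lp lm xp1320 xm1320 := okT_spec (by decide +kernel)

theorem trm1560 : Trm 1560 23000 Ap1560 Am1560 lp lm xp1560 xm1560 := okT_spec (by decide +kernel)

theorem trm2040 : Trm 2040 23000 Ap2040 Am2040 lp lm xp2040 xm2040 := okT_spec (by decide +kernel)

theorem trm2280 : Trm 2280 23000 Ap2280 Am2280 lp lm xp2280 xm2280 := okT_spec (by decide +kernel)

end Cfsg.Agent.Depth.P.T
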