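import Cfsg.Agent.Depth.P.T.Def

/-!
# Depth (S5768): the bit-sliced machine for the tables (helper45), the arithmetic of the planes
-/

set_option autoImplicit false

namespace Cfsg.Agent.Depth.P.T

/-- the number in the lane `i` -/
def val : List ℕ → ℕ → ℕ
  | [], _ => 0
  | x :: xs, i => (x.testBit i).toNat + 2 * val xs i

theorem val_realised : True := by have := @val.eq_def; trivial

theorem val_nil (i : ℕ) : val [] i = 0 := rfl

theorem val_cons (x : ℕ) (xs : List ℕ) (i : ℕ) : val (x :: xs) i = (x.testBit i).toNat + 2 * val xs i := rfl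

theorem tb_xor (x y i : ℕ) : (Nat.xor x y).testBit i = xor (x.testBit i) (y.testBit i) := Nat.testBit_xor x y i

theorem tb_and (x y i : ℕ) : (Nat.land x y).testBit i = (x.testBit i && y.testBit i) := Nat.testBit_and x y i

theorem tb_or (x y i : ℕ) : (Nat.lor x y).testBit i = (x.testBit i || y.testBit i) := Nat.testBit_or x y i

theorem tb_shl (x k i : ℕ) : (Nat.shiftLeft x k).testBit i = (decide (k ≤ i) && x.testBit (i - k)) :=
  Nat.testBit_shiftLeft x

theorem tb_shr (x k i : ℕ) : (Nat.shiftRight x k).testBit i = x.testBit (k + i) := Nat.testBit_shiftRight x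

theorem tb_ones (n i : ℕ) : (ones n).testBit i = decide (i < n) := by
  have : ones n = 2 ^ n - 1 := by
    show 1 <<< n - 1 = _
    rw [Nat.one_shiftLeft]
  rw [this, Nat.testBit_two_pow_sub_one]

theorem tb_win (o n x i : ℕ) : (win o n x).testBit i = (decide (i < n) && x.testBit (o + i)) := by
  unfold win
  rw [tb_shr, tb_and, tb_ones, Bool.and_comm]
  congr 1
  show decide (o + i < o + n) = _
  simp

theorem brec {α : Type} (a b : α) (t : Bool) : (Bool.rec a b t : α) = if t = true then b else a := by
  cases t <;> rfl

theorem beq_t (a b : ℕ) : Nat.beq a b = true ↔ a = b := Nat.beq_eq ▸ Iff.rfl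

theorem ble_t (a b : ℕ) : Nat.ble a b = true ↔ a ≤ b := Nat.ble_eq ▸ Iff.rfl

theorem val_lt (a : List ℕ) (i : ℕ) : val a i < 2 ^ a.length := by
  induction a with
  | nil => simp [val_nil]
  | cons x xs ih =>
    rw [val_cons, List.length_cons, pow_succ]
    have := Bool.toNat_le (x.testBit i)
    omega

theorem mp_cons (f : ℕ → ℕ) (x : ℕ) (xs : List ℕ) : mp f (x :: xs) = f x :: mp f xs := rfl

theorem len_mp (f : ℕ → ℕ) (a : List ℕ) : (mp f a).length = a.length := by
  induction a with
  | nil => rfl
  | cons x xs ih => rw [mp_cons, List.length_cons, List.length_cons, ih]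

theorem val_mp (f : ℕ → ℕ) (p : Bool) (i j : ℕ) (h : ∀ x, (f x).testBit i = (p && x.testBit j)) (a : List ℕ) :
    val (mp f a) i = if p = true then val a j else 0 := by
  induction a with
  | nil => simp [mp, val_nil]
  | cons x xs ih =>
    rw [mp_cons, val_cons, val_cons, ih, h]
    cases p <;> simp

theorem val_mp' (f : ℕ → ℕ) (i j : ℕ) (h : ∀ x, (f x).testBit i = x.testBit j) (a : List ℕ) :
    val (mp f a) i = val a j := by
  rw [val_mp f true i j (by simpa using h)]
  rfl

theorem val_mp0 (f : ℕ → ℕ) (i : ℕ) (h : ∀ x, (f x).testBit i = false) (a : List ℕ) :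
    val (mp f a) i = 0 := by
  rw [val_mp f false i 0 (by simpa using h)]
  rfl

theorem val_cpl (n i : ℕ) (h : i < n) (a : List ℕ) :
    val (mp (Nat.xor (ones n)) a) i + val a i + 1 = 2 ^ a.length := by
  induction a with
  | nil => rfl
  | cons x xs ih =>
    rw [mp_cons, val_cons, val_cons, tb_xor, tb_ones, List.length_cons, pow_succ, ← ih]
    cases x.testBit i <;> simp [h] <;> omega

theorem val_addH (a : List ℕ) : ∀ c i : ℕ, val (addH a c) i = val a i + (c.testBit i).toNat := by
  induction a with
  | nil =>
    intro c i
    show val (Bool.rec [c] [] (Nat.beq c 0)) i = _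
    rw [brec]
    split
    · next h => rw [(beq_t _ _).1 h]; simp [val_nil]
    · simp [val_cons, val_nil]
  | cons x xs ih =>
    intro c i
    show val (Bool.rec (Nat.xor x c :: addH xs (Nat.land x c)) (x :: xs) (Nat.beq c 0)) i = _
    rw [brec]
    split
    · next h => rw [(beq_t _ _).1 h]; simp
    · rw [val_cons, val_cons, ih, tb_xor, tb_and]
      cases x.testBit i <;> cases c.testBit i <;> simp <;> omega

theorem val_addC (a : List ℕ) :
    ∀ (b : List ℕ) (c i : ℕ), val (addC a b c) i = val a i + val b i + (c.testBit i).toNat := by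
  induction a with
  | nil =>
    intro b c i
    show val (addH b c) i = _
    rw [val_addH, val_nil, Nat.zero_add]
  | cons x xs ih =>
    intro b c i
    cases b with
    | nil =>
      show val (addH (x :: xs) c) i = _
      rw [val_addH, val_nil, Nat.add_zero]
    | cons y ys =>
      show val (Bool.rec
        (Nat.xor (Nat.xor x y) c :: addC xs ys (Nat.lor (Nat.land x y) (Nat.land (Nat.xor x y) c)))
        (Nat.xor x y :: addC xs ys (Nat.land x y)) (Nat.beq c 0)) i = _
      rw [brec]
      split
      · next h =>
        rw [(beq_t _ _).1 h, val_cons, val_cons, val_cons, ih, tb_xor, tb_and]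
        cases x.testBit i <;> cases y.testBit i <;> simp <;> omega
      · rw [val_cons, val_cons, val_cons, ih]
        simp only [tb_xor, tb_and, tb_or]
        cases x.testBit i <;> cases y.testBit i <;> cases c.testBit i <;> simp <;> omega

theorem val_addC0 (a b : List ℕ) (i : ℕ) : val (addC a b 0) i = val a i + val b i := by
  rw [val_addC]; simp

theorem addM_cons (x y c : ℕ) (xs ys : List ℕ) : addM (x :: xs) (y :: ys) c =
    Nat.xor (Nat.xor x y) c :: addM xs ys (Nat.lor (Nat.land x y) (Nat.land (Nat.xor x y) c)) := rfl

theorem subM_cons (x y c : ℕ) (xs ys : List ℕ) : subM (x :: xs) (y :: ys) c =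
    Nat.xor (Nat.xor x y) c :: subM xs ys (Nat.xor c (Nat.land (Nat.xor x y) (Nat.xor y c))) := rfl

theorem addM_spec (a : List ℕ) : ∀ (b : List ℕ) (c i : ℕ), a.length = b.length →
    (addM a b c).length = a.length ∧
      ∃ q : ℤ, (val (addM a b c) i : ℤ) = val a i + val b i + (c.testBit i).toNat + 2 ^ a.length * q := by
  induction a with
  | nil =>
    intro b c i h
    cases b with
    | nil => exact ⟨rfl, -(c.testBit i).toNat, by simp [addM, val_nil]⟩
    | cons y ys => simp at h
  | cons x xs ih =>
    intro b c i h
    cases b with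
    | nil => simp at h
    | cons y ys =>
      obtain ⟨h1, q, h2⟩ := ih ys (Nat.lor (Nat.land x y) (Nat.land (Nat.xor x y) c)) i (by simpa using h)
      refine ⟨by rw [addM_cons, List.length_cons, h1, List.length_cons], q, ?_⟩
      rw [addM_cons, val_cons, val_cons, val_cons, List.length_cons, pow_succ]
      push_cast
      rw [h2]
      simp only [tb_xor, tb_and, tb_or]
      cases x.testBit i <;> cases y.testBit i <;> cases c.testBit i <;> simp <;> ring

theorem subM_spec (a : List ℕ) : ∀ (b : List ℕ) (c i : ℕ), a.length = b.length →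
    (subM a b c).length = a.length ∧
      ∃ q : ℤ, (val (subM a b c) i : ℤ) = val a i - val b i - (c.testBit i).toNat + 2 ^ a.length * q := by
  induction a with
  | nil =>
    intro b c i h
    cases b with
    | nil => exact ⟨rfl, (c.testBit i).toNat, by simp [subM, val_nil]⟩
    | cons y ys => simp at h
  | cons x xs ih =>
    intro b c i h
    cases b with
    | nil => simp at h
    | cons y ys =>
      obtain ⟨h1, q, h2⟩ := ih ys (Nat.xor c (Nat.land (Nat.xor x y) (Nat.xor y c))) i (by simpa using h)
      refine ⟨by rw [subM_cons, List.length_cons, h1, List.length_cons], q, ?_⟩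
      rw [subM_cons, val_cons, val_cons, val_cons, List.length_cons, pow_succ]
      push_cast
      rw [h2]
      simp only [tb_xor, tb_and]
      cases x.testBit i <;> cases y.testBit i <;> cases c.testBit i <;> simp <;> ring

theorem len_addM {a b : List ℕ} (ha : a.length = 9) (hb : b.length = 9) : (addM a b 0).length = 9 :=
  (addM_spec a b 0 0 (ha.trans hb.symm)).1.trans ha

theorem len_subM {a b : List ℕ} (ha : a.length = 9) (hb : b.length = 9) : (subM a b 0).length = 9 :=
  (subM_spec a b 0 0 (ha.trans hb.symm)).1.trans ha

theorem val_addM {a b : List ℕ} (ha : a.length = 9) (hb : b.length = 9) (i : ℕ) :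
    (val (addM a b 0) i : ℤ) % 512 = (val a i + val b i) % 512 := by
  obtain ⟨-, q, h⟩ := addM_spec a b 0 i (ha.trans hb.symm)
  rw [h, ha]
  simp only [Nat.zero_testBit, Bool.toNat_false]
  omega

theorem val_subM {a b : List ℕ} (ha : a.length = 9) (hb : b.length = 9) (i : ℕ) :
    (val (subM a b 0) i : ℤ) % 512 = (val a i - val b i) % 512 := by
  obtain ⟨-, q, h⟩ := subM_spec a b 0 i (ha.trans hb.symm)
  rw [h, ha]
  simp only [Nat.zero_testBit, Bool.toNat_false]
  omega

theorem val_lt9 {a : List ℕ} (ha : a.length = 9) (i : ℕ) : val a i < 512 := by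
  have := val_lt a i
  rwa [ha] at this

theorem len_fixN (n : ℕ) : ∀ a : List ℕ, (fixN n a).length = n := by
  induction n with
  | zero => intro a; rfl
  | succ n ih =>
    intro a
    cases a with
    | nil => exact congrArg Nat.succ (ih [])
    | cons x xs => exact congrArg Nat.succ (ih xs)

theorem len_drp (n : ℕ) : ∀ a : List ℕ, (drp n a).length = a.length - n := by
  induction n with
  | zero => intro a; rfl
  | succ n ih =>
    intro a
    cases a with
    | nil => simp [drp]
    | cons x xs =>
      show (drp n xs).length = _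
      rw [ih, List.length_cons, Nat.add_sub_add_right]

theorem val_fix_drp (n : ℕ) : ∀ (a : List ℕ) (i : ℕ), val a i = val (fixN n a) i + 2 ^ n * val (drp n a) i := by
  induction n with
  | zero => intro a i; show _ = 0 + 1 * val a i; omega
  | succ n ih =>
    intro a i
    cases a with
    | nil =>
      show 0 = val (0 :: fixN n []) i + 2 ^ (n + 1) * 0
      have := ih [] i
      rw [val_nil] at this
      rw [val_cons]
      simp only [Nat.zero_testBit, Bool.toNat_false]
      omega
    | cons x xs =>
      show _ = val (x :: fixN n xs) i + 2 ^ (n + 1) * val (drp n xs) i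
      rw [val_cons, val_cons, ih xs i]
      ring

theorem val_fixN {n : ℕ} {a : List ℕ} (h : a.length ≤ n) (i : ℕ) : val (fixN n a) i = val a i := by
  have h1 := val_fix_drp n a i
  have h2 := val_lt (drp n a) i
  rw [len_drp, Nat.sub_eq_zero_of_le h] at h2
  have h3 : val (drp n a) i = 0 := by omega
  rw [h3] at h1
  omega

theorem val_hd {a : List ℕ} (h : a.length = 1) (i : ℕ) : val a i = ((hd a).testBit i).toNat := by
  match a, h with
  | [x], _ => rfl

theorem gtP_spec (a : List ℕ) : ∀ (b : List ℕ) (g i : ℕ), a.length = b.length →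
    ((gtP a b g).testBit i = true ↔ val b i < val a i ∨ (val a i = val b i ∧ g.testBit i = true)) := by
  induction a with
  | nil =>
    intro b g i h
    cases b with
    | nil => simp [gtP, val_nil]
    | cons y ys => simp at h
  | cons x xs ih =>
    intro b g i h
    cases b with
    | nil => simp at h
    | cons y ys =>
      show (gtP xs ys (Nat.xor g (Nat.land (Nat.xor x y) (Nat.xor g x)))).testBit i = true ↔ _
      rw [ih ys _ i (by simpa using h), val_cons, val_cons]
      simp only [tb_xor, tb_and]
      cases x.testBit i <;> cases y.testBit i <;> cases g.testBit i <;> simp <;> omega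

theorem gtP_zero {a b : List ℕ} (h : a.length = b.length) {i : ℕ} (h0 : (gtP a b 0).testBit i = false) :
    val a i ≤ val b i := by
  by_contra hc
  have := (gtP_spec a b 0 i h).2 (Or.inl (by omega))
  rw [h0] at this
  cases this

theorem mux_spec (g : ℕ) (a : List ℕ) : ∀ (b : List ℕ) (i : ℕ), a.length = b.length →
    (mux g a b).length = a.length ∧ val (mux g a b) i = if g.testBit i = true then val a i else val b i := by
  induction a with
  | nil =>
    intro b i h
    cases b with
    | nil => simp [mux, val_nil]
    | cons y ys => simp at h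
  | cons x xs ih =>
    intro b i h
    cases b with
    | nil => simp at h
    | cons y ys =>
      obtain ⟨h1, h2⟩ := ih ys i (by simpa using h)
      have e : mux g (x :: xs) (y :: ys) = Nat.xor y (Nat.land (Nat.xor x y) g) :: mux g xs ys := rfl
      refine ⟨by rw [e, List.length_cons, h1, List.length_cons], ?_⟩
      rw [e, val_cons, val_cons, val_cons, h2]
      simp only [tb_xor, tb_and]
      cases x.testBit i <;> cases y.testBit i <;> cases g.testBit i <;> simp

theorem len_maxP {a b : List ℕ} (h : a.length = b.length) : (maxP a b).length = a.length :=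
  (mux_spec _ a b 0 h).1

theorem val_maxP {a b : List ℕ} (h : a.length = b.length) (i : ℕ) :
    val a i ≤ val (maxP a b) i ∧ val b i ≤ val (maxP a b) i := by
  unfold maxP
  rw [(mux_spec _ a b i h).2]
  have := gtP_spec a b 0 i h
  split
  · next h1 =>
    have := this.1 h1
    simp at this
    omega
  · next h1 =>
    have : ¬ val b i < val a i := fun h2 => h1 (this.2 (Or.inl h2))
    omega

theorem eqL_eq (a : List ℕ) : ∀ b : List ℕ, eqL a b = true → a = b := by
  induction a with
  | nil =>
    intro b h
    cases b with
    | nil => rfl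
    | cons y ys => cases h
  | cons x xs ih =>
    intro b h
    cases b with
    | nil => cases h
    | cons y ys =>
      change Bool.rec false (eqL xs ys) (Nat.beq x y) = true at h
      rw [brec] at h
      split at h
      · next h1 => rw [(beq_t _ _).1 h1, ih ys h]
      · cases h

theorem len_eq (a : List ℕ) : len a = a.length := by
  induction a with
  | nil => rfl
  | cons x xs ih => exact congrArg Nat.succ ih

theorem land_one (x : ℕ) : Nat.land x 1 = (x.testBit 0).toNat := by
  show x &&& 1 = _
  rw [Nat.and_one_is_mod, Nat.testBit_zero]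
  rcases Nat.mod_two_eq_zero_or_one x with h | h <;> simp [h]

theorem num_eq (a : List ℕ) : num a = val a 0 := by
  induction a with
  | nil => rfl
  | cons x xs ih =>
    show Nat.land x 1 + 2 * num xs = _
    rw [land_one, ih, val_cons]

theorem len_unp (w n : ℕ) : ∀ S : ℕ, (unp w n S).length = n := by
  induction n with
  | zero => intro S; rfl
  | succ n ih => intro S; exact congrArg Nat.succ (ih _)

theorem val_unp (w n i : ℕ) (h : w ≤ i) : ∀ S : ℕ, val (unp w n S) i = 0 := by
  induction n with
  | zero => intro S; rfl
  | succ n ih =>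
    intro S
    show val (Nat.land S (ones w) :: unp w n (Nat.shiftRight S w)) i = 0
    rw [val_cons, ih, tb_and, tb_ones]
    simp [Nat.not_lt.2 h]

theorem len_cst (m n : ℕ) : ∀ v : ℕ, (cst m n v).length = n := by
  induction n with
  | zero => intro S; rfl
  | succ n ih => intro S; exact congrArg Nat.succ (ih _)

theorem val_cst (m n i : ℕ) (h : m.testBit i = true) : ∀ v : ℕ, v < 2 ^ n → val (cst m n v) i = v := by
  induction n with
  | zero => intro v hv; show 0 = v; omega
  | succ n ih =>
    intro v hv
    show val ((v &&& 1) * m :: cst m n (v >>> 1)) i = v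
    rw [val_cons, Nat.shiftRight_one, ih _ (by omega), Nat.and_one_is_mod]
    rcases Nat.mod_two_eq_zero_or_one v with h1 | h1
    · rw [h1]; simp; omega
    · rw [h1]; simp [h]; omega

theorem tb_cmask (W c n u : ℕ) (hu : u < n) (h : (30 * u + c).Coprime W) : (cmask W c n).testBit u = true := by
  induction n with
  | zero => omega
  | succ n ih =>
    show (Bool.rec (cmask W c n) (Nat.lor (cmask W c n) (Nat.shiftLeft 1 n))
      (Nat.beq (Nat.gcd (30 * n + c) W) 1) : ℕ).testBit u = true
    rw [brec]
    rcases Nat.lt_succ_iff_lt_or_eq.1 hu with h1 | h1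
    · split
      · rw [tb_or, ih h1]; rfl
      · exact ih h1
    · subst h1
      rw [if_pos ((beq_t _ _).2 h), tb_or, tb_shl]
      simp

theorem rng_spec {m : ℕ} {a : List ℕ} (ha : a.length = 9) (h : rng m a = true) {i : ℕ} (hi : m.testBit i = true) :
    64 ≤ val a i ∧ val a i < 448 := by
  unfold rng at h
  rw [brec] at h
  split at h
  · next h1 =>
    have l1 : (drp 6 a).length = 3 := by rw [len_drp, ha]
    have e1 := congrArg (fun x => x.testBit i) ((beq_t _ _).1 h)
    have e2 := congrArg (fun x => x.testBit i) ((beq_t _ _).1 h1)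
    simp only [tb_and, hi, Bool.true_and, Nat.zero_testBit] at e1 e2
    have f1 := gtP_zero (l1.trans (len_cst m 3 6).symm) e1
    have f2 := gtP_zero ((len_cst m 3 1).trans l1.symm) e2
    rw [val_cst m 3 i hi _ (by norm_num)] at f1 f2
    have f3 := val_fix_drp 6 a i
    have f4 := val_lt (fixN 6 a) i
    rw [len_fixN] at f4
    omega
  · cases h

end Cfsg.Agent.Depth.P.T
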