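import Cfsg.Agent.Depth.P.T.Pat

/-!
# Depth (S5768): the bit-sliced machine for the tables (helper45), the walk
-/

set_option autoImplicit false

namespace Cfsg.Agent.Depth.P.T

open Finset

/-- the lists describe `e` -/
structure Trm (W K Ap Am : ℕ) (lp lm xp xm : List ℕ) : Prop where
  c1 : ∀ k ∈ lp, k.Coprime 30
  c2 : ∀ k ∈ lm, k.Coprime 30
  c3 : ∀ k ∈ xp, k.Coprime 30
  c4 : ∀ k ∈ xm, k.Coprime 30
  eq : ∀ j : ℕ, j.Coprime W → ee K Ap Am j = (nd lp j + nd xp j : ℤ) - (nd lm j + nd xm j)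
  one : ee K Ap Am 1 = 1

/-- `e` without the term `j = 1` -/
def et (K Ap Am j : ℕ) : ℤ := ee K Ap Am j - if j = 1 then 1 else 0

/-- sums over rows -/
def GG (W K Ap Am r s : ℕ) : ℤ := ∑ a ∈ range s, et K Ap Am (a * W + r)

theorem GG_succ (W K Ap Am r s : ℕ) : GG W K Ap Am r (s + 1) = GG W K Ap Am r s + et K Ap Am (s * W + r) :=
  sum_range_succ _ _

theorem EE_eq (W K Ap Am r : ℕ) (h1 : ee K Ap Am 1 = 1) (hr : 1 ≤ r) (hW : r < W) (n : ℕ) :
    EE W K Ap Am r n = GG W K Ap Am r ((n + W - r) / W) := by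
  induction n with
  | zero =>
    rw [Nat.div_eq_of_lt (by omega)]
    simp [EE, GG]
  | succ n ih =>
    have e1 : EE W K Ap Am r (n + 1) = EE W K Ap Am r n + if (n + 1) % W = r then et K Ap Am (n + 1) else 0 := by
      unfold EE
      rw [sum_filter, sum_filter]
      rcases Nat.eq_zero_or_pos n with h | h
      · subst h
        simp [et, h1]
      · rw [sum_Icc_succ_top (by omega)]
        simp [et, show n ≠ 0 by omega]
    rw [e1, ih, show n + 1 + W - r = (n + W - r) + 1 by omega, Nat.succ_div]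
    by_cases h : W ∣ n + W - r + 1
    · obtain ⟨q, hq⟩ := h
      have hq1 : 1 ≤ q := by
        rcases Nat.eq_zero_or_pos q with h0 | h0
        · subst h0; omega
        · exact h0
      obtain ⟨p, rfl⟩ : ∃ p, q = p + 1 := ⟨q - 1, by omega⟩
      have e2 : n + 1 = p * W + r := by rw [Nat.mul_add, Nat.mul_comm] at hq; omega
      have e3 : (n + W - r) / W = p := by
        rw [Nat.div_eq_iff (by omega)]
        omega
      rw [if_pos (Dvd.intro _ hq.symm), e3, GG_succ, e2, if_pos]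
      rw [Nat.mul_add_mod_self_right, Nat.mod_eq_of_lt hW]
    · rw [if_neg h, if_neg, add_zero, add_zero]
      intro h2
      refine h ⟨(n + 1) / W + 1, ?_⟩
      have := Nat.mod_add_div (n + 1) W
      rw [Nat.mul_add]
      omega

theorem bit_zero {a : List ℕ} {i : ℕ} (h : val a i = 0) : ∀ x ∈ a, x.testBit i = false := by
  induction a with
  | nil => intro x hx; cases hx
  | cons y ys ih =>
    rw [val_cons] at h
    intro x hx
    rcases List.mem_cons.1 hx with rfl | hx
    · cases hb : x.testBit i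
      · rfl
      · rw [hb] at h; simp at h
    · exact ih (by omega) x hx

theorem val_mp_mem (f : ℕ → ℕ) (p : Bool) (i j : ℕ) (a : List ℕ)
    (h : ∀ x ∈ a, (f x).testBit i = (p && x.testBit j)) : val (mp f a) i = if p = true then val a j else 0 := by
  induction a with
  | nil => simp [mp, val_nil]
  | cons x xs ih =>
    rw [mp_cons, val_cons, val_cons, ih (fun y hy => h y (List.mem_cons_of_mem _ hy)), h x List.mem_cons_self]
    cases p <;> simp

theorem len_ew (cb : ℕ → ℕ) (b c : ℕ) (lp lm xp xm : List ℕ) (o n : ℕ) : (ew cb b c lp lm xp xm o n).length = 9 :=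
  len_subM (len_fixN _ _) (len_fixN _ _)

theorem ew_spec {W K Ap Am : ℕ} {lp lm xp xm : List ℕ} (hT : Trm W K Ap Am lp lm xp xm) {cb : ℕ → ℕ} {L : ℕ}
    (hc : Comb cb L) {b c : ℕ} (hk : okw cb b c lp lm xp xm = true) {o n : ℕ} (ho : o + n ≤ L) (i : ℕ) :
    (n ≤ i → val (ew cb b c lp lm xp xm o n) i = 0) ∧
      (i < n → ∀ j, j = 30 * (b + (o + i)) + c → j.Coprime W →
        (val (ew cb b c lp lm xp xm o n) i : ℤ) % 512 = et K Ap Am j % 512 ∧ -31 ≤ et K Ap Am j ∧ et K Ap Am j ≤ 31) := by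
  unfold okw at hk
  rw [brec] at hk
  split at hk
  swap
  · cases hk
  next hp =>
  have l1 : (cP cb b c lp xp).length ≤ 5 := len_eq _ ▸ (ble_t _ _).1 hp
  have l2 : (cN cb b c lm xm).length ≤ 5 := len_eq _ ▸ (ble_t _ _).1 hk
  have v := val_subM (len_fixN 9 (mp (win o n) (cP cb b c lp xp))) (len_fixN 9 (mp (win o n) (cN cb b c lm xm))) i
  rw [val_fixN (by rw [len_mp]; omega), val_fixN (by rw [len_mp]; omega),
    val_mp _ _ i (o + i) (tb_win o n · i), val_mp _ _ i (o + i) (tb_win o n · i)] at v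
  change (val (ew cb b c lp lm xp xm o n) i : ℤ) % 512 = _ at v
  constructor
  · intro h
    have := val_lt9 (len_ew cb b c lp lm xp xm o n) i
    simp only [show ¬ i < n by omega, decide_false, Bool.false_eq_true, if_false] at v
    omega
  · intro h j hj hW
    simp only [h, decide_true, if_true] at v
    have b1 := (val_lt (cP cb b c lp xp) (o + i)).trans_le (Nat.pow_le_pow_right (by norm_num) l1)
    have b2 := (val_lt (cN cb b c lm xm) (o + i)).trans_le (Nat.pow_le_pow_right (by norm_num) l2)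
    have p1 : val (cP cb b c lp xp) (o + i) = nd lp j + nd xp j := by
      unfold cP
      rw [val_addC0, cnt_spec hc b c _ (by omega) _ hT.c1, cnt_spec hc b c _ (by omega) _ hT.c3, hj]
    have p2 : val (cN cb b c lm xm) (o + i) = nd lm j + nd xm j + if j = 1 then 1 else 0 := by
      unfold cN
      rw [val_addC, cnt_spec hc b c _ (by omega) _ hT.c2, cnt_spec hc b c _ (by omega) _ hT.c4, ← hj, brec]
      congr 1
      change ((if Nat.beq (30 * b + c) 1 = true then 1 else 0 : ℕ).testBit (o + i)).toNat = _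
      by_cases h1 : 30 * b + c = 1
      · rw [if_pos ((beq_t _ _).2 h1)]
        by_cases h2 : o + i = 0
        · rw [h2, if_pos (by omega)]; rfl
        · rw [if_neg (by omega)]
          cases hb : Nat.testBit 1 (o + i)
          · rfl
          · exact absurd ((tb_one _).1 hb) h2
      · rw [if_neg (fun h2 => h1 ((beq_t _ _).1 h2)), if_neg (by omega)]
        simp
    have p3 : et K Ap Am j = (val (cP cb b c lp xp) (o + i) : ℤ) - val (cN cb b c lm xm) (o + i) := by
      unfold et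
      rw [hT.eq j hW, p1, p2]
      push_cast
      ring
    omega

/-- the state at the row `sa` -/
def St (K Ap Am : ℕ) (J : Job) (c sa s : ℕ) : Prop :=
  ∀ u < J.w, (30 * u + c).Coprime (30 * J.w) → (val (unp J.w 9 s) u : ℤ) =
    GG (30 * J.w) K Ap Am (30 * u + c) (2 * sa) - (if J.c = 2 then GG (30 * J.w) K Ap Am (30 * u + c) sa else 0) + 256

/-- the conditions on the ranges -/
structure Rng (S : Seg) (J : Job) (D : Dyn) : Prop where
  hL : S.L ≤ 500000
  h1 : S.n ≤ D.sa * J.w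
  h2 : (D.sa + D.R) * J.w ≤ S.n + S.L

section walk

variable {K Ap Am : ℕ} {S : Seg} {J : Job} {D : Dyn}

theorem len_eD : (eD S J D).length = 9 := by
  unfold eD
  rw [brec]
  split
  · rw [len_mp]; exact len_ew ..
  · exact len_fixN _ _

theorem cop_row {w u c : ℕ} (h : (30 * u + c).Coprime (30 * w)) (a : ℕ) :
    (a * (30 * w) + (30 * u + c)).Coprime (30 * w) := by
  rwa [Nat.coprime_mul_right_add_left]

theorem eA_spec (hT : Trm (30 * J.w) K Ap Am S.lp S.lm J.xp J.xm) (hR : Rng S J D)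
    (hk : okw (cbA S.L) S.n S.c S.lp S.lm J.xp J.xm = true) :
    (∀ i, D.R * J.w ≤ i → val (eA S J D) i = 0) ∧ ∀ u < J.w, (30 * u + S.c).Coprime (30 * J.w) → ∀ a < D.R,
      (val (eA S J D) (a * J.w + u) : ℤ) % 512 = et K Ap Am ((D.sa + a) * (30 * J.w) + (30 * u + S.c)) % 512 ∧
        -31 ≤ et K Ap Am ((D.sa + a) * (30 * J.w) + (30 * u + S.c)) ∧
        et K Ap Am ((D.sa + a) * (30 * J.w) + (30 * u + S.c)) ≤ 31 := by
  have h1 := hR.h1
  have h2 := hR.h2
  rw [Nat.add_mul] at h2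
  have key := fun i => ew_spec hT (comb_A S.L hR.hL) hk (o := D.sa * J.w - S.n) (n := D.R * J.w) (by omega) i
  refine ⟨fun i hi => (key i).1 hi, fun u hu hc a ha => ?_⟩
  have h3 := Nat.mul_le_mul_right J.w (Nat.succ_le_of_lt ha)
  rw [Nat.succ_mul] at h3
  refine (key _).2 (by omega) _ ?_ (cop_row hc _)
  have : (D.sa + a) * (30 * J.w) = 30 * (D.sa * J.w) + 30 * (a * J.w) := by ring
  omega

theorem eB_spec (hT : Trm (30 * J.w) K Ap Am S.lp S.lm J.xp J.xm) (hR : Rng S J D)
    (hk : okw (cbB S.L) (Nat.mul 2 S.n) S.c S.lp S.lm J.xp J.xm = true) :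
    ∀ u < J.w, (30 * u + S.c).Coprime (30 * J.w) → ∀ a < 2 * D.R,
      (val (eB S J D) (a * J.w + u) : ℤ) % 512 = et K Ap Am ((2 * D.sa + a) * (30 * J.w) + (30 * u + S.c)) % 512 ∧
        -31 ≤ et K Ap Am ((2 * D.sa + a) * (30 * J.w) + (30 * u + S.c)) ∧
        et K Ap Am ((2 * D.sa + a) * (30 * J.w) + (30 * u + S.c)) ≤ 31 := by
  have h1 := hR.h1
  have h2 := hR.h2
  rw [Nat.add_mul] at h2
  have key := fun i => ew_spec hT (comb_B S.L hR.hL) hk (o := 2 * (D.sa * J.w - S.n)) (n := 2 * (D.R * J.w))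
    (by omega) i
  intro u hu hc a ha
  have h3 := Nat.mul_le_mul_right J.w (Nat.succ_le_of_lt ha)
  rw [Nat.succ_mul, Nat.mul_assoc] at h3
  refine (key _).2 (by omega) _ ?_ (cop_row hc _)
  have : (2 * D.sa + a) * (30 * J.w) = 60 * (D.sa * J.w) + 30 * (a * J.w) := by ring
  show _ = 30 * (2 * S.n + _) + _
  omega

/-- the subtracted steps -/
def Dl (K Ap Am : ℕ) (J : Job) (D : Dyn) (r a : ℕ) : ℤ :=
  if J.c = 2 ∧ a % 2 = 1 then et K Ap Am ((D.sa + a / 2) * (30 * J.w) + r) else 0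

/-- the values of the walk -/
def TT (K Ap Am : ℕ) (J : Job) (D : Dyn) (r a : ℕ) : ℤ :=
  GG (30 * J.w) K Ap Am r (2 * D.sa + a) - if J.c = 2 then GG (30 * J.w) K Ap Am r (D.sa + a / 2) else 0

theorem TT_Dl (r a : ℕ) : TT K Ap Am J D r a - Dl K Ap Am J D r a =
    GG (30 * J.w) K Ap Am r (2 * D.sa + a) - if J.c = 2 then GG (30 * J.w) K Ap Am r (D.sa + (a + 1) / 2) else 0 := by
  unfold TT Dl
  by_cases hc : J.c = 2
  · by_cases ha : a % 2 = 1
    · rw [if_pos hc, if_pos hc, if_pos ⟨hc, ha⟩, show D.sa + (a + 1) / 2 = D.sa + a / 2 + 1 by omega, GG_succ]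
      ring
    · rw [if_pos hc, if_pos hc, if_neg (fun h => ha h.2), show (a + 1) / 2 = a / 2 by omega]
      ring
  · rw [if_neg hc, if_neg hc, if_neg (fun h => hc h.1)]
    ring

theorem TT_succ (r a : ℕ) : TT K Ap Am J D r (a + 1) =
    TT K Ap Am J D r a + et K Ap Am ((2 * D.sa + a) * (30 * J.w) + r) - Dl K Ap Am J D r a := by
  have := TT_Dl (K := K) (Ap := Ap) (Am := Am) (J := J) (D := D) r a
  unfold TT at this ⊢
  rw [← Nat.add_assoc, GG_succ]
  omega

theorem eD_spec (hT : Trm (30 * J.w) K Ap Am S.lp S.lm J.xp J.xm) (hR : Rng S J D)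
    (hk : okw (cbA S.L) S.n S.c S.lp S.lm J.xp J.xm = true) :
    ∀ u < J.w, (30 * u + S.c).Coprime (30 * J.w) → ∀ a ≤ 2 * D.R,
      (val (eD S J D) (a * J.w + u) : ℤ) % 512 = Dl K Ap Am J D (30 * u + S.c) a % 512 ∧
        -31 ≤ Dl K Ap Am J D (30 * u + S.c) a ∧ Dl K Ap Am J D (30 * u + S.c) a ≤ 31 := by
  intro u hu hc a ha
  obtain ⟨z, hA⟩ := eA_spec hT hR hk
  have hR5 : D.R ≤ 500000 := by
    have h1 := hR.h1
    have h2 := hR.h2
    have h3 := hR.hL
    have h4 : D.R * 1 ≤ D.R * J.w := Nat.mul_le_mul_left _ (by omega)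
    rw [Nat.add_mul] at h2
    omega
  have dl := fun x (hx : x ∈ eA S J D) => dil_row J.w D.R x (by omega) hR5 (fun i hi => bit_zero (z i hi) x hx)
  unfold eD Dl
  rw [brec]
  by_cases h2 : J.c = 2
  · rw [if_pos ((beq_t _ _).2 h2)]
    obtain ⟨b, rfl | rfl⟩ : ∃ b, a = 2 * b ∨ a = 2 * b + 1 := ⟨a / 2, by omega⟩
    · rw [if_neg (by omega), val_mp_mem _ false _ 0 _ ?_]
      · simp
      · intro x hx
        rw [tb_shl]
        rcases Nat.eq_zero_or_pos b with h0 | h0
        · subst h0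
          simp [show ¬ J.w ≤ u by omega]
        · obtain ⟨b', rfl⟩ : ∃ b', b = b' + 1 := ⟨b - 1, by omega⟩
          have e : 2 * (b' + 1) * J.w + u - J.w = b' * (2 * J.w) + (J.w + u) := by
            have : 2 * (b' + 1) * J.w = b' * (2 * J.w) + 2 * J.w := by ring
            omega
          rw [e, dl x hx b' _ (by omega)]
          simp
    · rw [if_pos ⟨h2, by omega⟩, val_mp_mem _ true _ (b * J.w + u) _ ?_, show (2 * b + 1) / 2 = b by omega]
      · exact hA u hu hc b (by omega)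
      · intro x hx
        have e0 : (2 * b + 1) * J.w = b * (2 * J.w) + J.w := by ring
        have e : (2 * b + 1) * J.w + u - J.w = b * (2 * J.w) + u := by omega
        rw [tb_shl, e, dl x hx b _ (by omega)]
        simp [hu, show J.w ≤ (2 * b + 1) * J.w + u by omega]
  · rw [if_neg (fun h => h2 ((beq_t _ _).1 h)), if_neg (fun h => h2 h.1), val_fixN (by simp), val_nil]
    simp

theorem len_pre (n t : ℕ) : ∀ (d : ℕ) (x : List ℕ), x.length = 9 → (pre n t d x).length = 9 := by
  induction t with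
  | zero => intro d x hx; exact hx
  | succ t ih => intro d x hx; exact ih _ _ (len_addM hx ((len_mp _ _).trans hx))

theorem len_v1 : (v1 S J D).length = 9 :=
  len_pre _ _ _ _ (len_addM ((len_mp _ _).trans (len_subM (len_ew ..) len_eD)) (len_unp J.w 9 D.s))

theorem len_v2 : (v2 S J D).length = 9 := len_subM len_v1 len_eD

theorem v1_mod (hT : Trm (30 * J.w) K Ap Am S.lp S.lm J.xp J.xm) (hR : Rng S J D)
    (k1 : okw (cbA S.L) S.n S.c S.lp S.lm J.xp J.xm = true)
    (k2 : okw (cbB S.L) (Nat.mul 2 S.n) S.c S.lp S.lm J.xp J.xm = true) (h0 : St K Ap Am J S.c D.sa D.s)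
    (u : ℕ) (hu : u < J.w) (hc : (30 * u + S.c).Coprime (30 * J.w)) (a : ℕ) (ha : a ≤ 2 * D.R) :
    (val (v1 S J D) (a * J.w + u) : ℤ) % 512 = (TT K Ap Am J D (30 * u + S.c) a + 256) % 512 := by
  have l0 : (subM (eB S J D) (eD S J D) 0).length = 9 := len_subM (len_ew ..) len_eD
  have l1 : (mp (fun x => Nat.shiftLeft x J.w) (subM (eB S J D) (eD S J D) 0)).length = 9 := (len_mp _ _).trans l0
  have l2 := len_addM l1 (len_unp J.w 9 D.s)
  have e : nV J D = 2 * D.R * J.w + J.w := Nat.succ_mul _ _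
  have key := (pre_spec (nV J D) J.w u (fun a => if a = 0 then 0 else TT K Ap Am J D (30 * u + S.c) (a - 1) + 256)
    rfl hu (lg (Nat.succ (Nat.mul 2 D.R))) 1 _ l2 ?_).2 a
      (by have := Nat.mul_le_mul_right J.w ha; omega)
  · have h1 : 2 * D.R + 1 ≤ 2 ^ lg (Nat.succ (Nat.mul 2 D.R)) := lg_spec _
    rw [Nat.one_mul, Nat.one_mul, show a + 1 - 2 ^ lg (Nat.succ (Nat.mul 2 D.R)) = 0 by omega] at key
    simp only [Nat.succ_ne_zero, if_false, if_true, Nat.add_sub_cancel, sub_zero] at key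
    exact key
  · intro b hb
    rw [val_addM l1 (len_unp J.w 9 D.s)]
    rcases Nat.eq_zero_or_pos b with hb0 | hb0
    · subst hb0
      rw [val_mp0 _ _ (by intro p; rw [tb_shl]; simp [show ¬ J.w ≤ u by omega]), Nat.zero_mul, Nat.zero_add,
        h0 u hu hc]
      simp [TT]
    · obtain ⟨b', rfl⟩ : ∃ b', b = b' + 1 := ⟨b - 1, by omega⟩
      have hb' : b' < 2 * D.R := by
        by_contra h
        have := Nat.mul_le_mul_right J.w (show 2 * D.R ≤ b' by omega)
        rw [Nat.add_mul] at hb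
        omega
      rw [val_mp' _ _ (b' * J.w + u) (by
        intro p
        rw [tb_shl, Nat.add_mul, show b' * J.w + 1 * J.w + u - J.w = b' * J.w + u by omega]
        simp [show J.w ≤ b' * J.w + J.w + u by omega]), val_unp _ _ _ (by rw [Nat.add_mul]; omega)]
      have f1 := val_subM (len_ew ..) len_eD (a := eB S J D) (b := eD S J D) (b' * J.w + u)
      have f2 := (eB_spec hT hR k2 u hu hc b' hb').1
      have f3 := (eD_spec hT hR k1 u hu hc b' hb'.le).1
      have f4 := TT_succ (K := K) (Ap := Ap) (Am := Am) (J := J) (D := D) (30 * u + S.c) b'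
      simp only [Nat.succ_ne_zero, if_false, Nat.add_sub_cancel]
      omega

theorem walk_spec (hT : Trm (30 * J.w) K Ap Am S.lp S.lm J.xp J.xm) (hR : Rng S J D) (hk : okc S J D = true)
    (h0 : St K Ap Am J S.c D.sa D.s) :
    St K Ap Am J S.c (D.sa + D.R) D.s' ∧
      ∀ u < J.w, (30 * u + S.c).Coprime (30 * J.w) → ∀ a ≤ 2 * D.R,
        (val (v1 S J D) (a * J.w + u) : ℤ) = TT K Ap Am J D (30 * u + S.c) a + 256 ∧
        (val (v2 S J D) (a * J.w + u) : ℤ) =
          TT K Ap Am J D (30 * u + S.c) a - Dl K Ap Am J D (30 * u + S.c) a + 256 := by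
  unfold okc at hk
  simp only [Bool.and_eq_true] at hk
  obtain ⟨⟨⟨k1, k2⟩, k3⟩, k4⟩ := hk
  have main : ∀ u < J.w, (30 * u + S.c).Coprime (30 * J.w) → ∀ a ≤ 2 * D.R,
      (val (v1 S J D) (a * J.w + u) : ℤ) = TT K Ap Am J D (30 * u + S.c) a + 256 ∧
        64 ≤ val (v1 S J D) (a * J.w + u) ∧ val (v1 S J D) (a * J.w + u) < 448 := by
    intro u hu hc
    have hR5 : D.R ≤ 500000 := by
      have h1 := hR.h1
      have h2 := hR.h2
      have h3 := hR.hL
      have h4 : D.R * 1 ≤ D.R * J.w := Nat.mul_le_mul_left _ (by omega)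
      rw [Nat.add_mul] at h2
      omega
    have rg : ∀ a ≤ 2 * D.R, 64 ≤ val (v1 S J D) (a * J.w + u) ∧ val (v1 S J D) (a * J.w + u) < 448 := by
      intro a ha
      refine rng_spec len_v1 k3 (rep_row _ _ _ a u (Nat.succ_pos _) ?_ (Nat.lt_succ_of_le ha) (tb_cmask _ _ _ u hu hc))
      show 2 * D.R + 1 ≤ _
      omega
    intro a
    induction a with
    | zero =>
      intro ha
      have f1 := v1_mod hT hR k1 k2 h0 u hu hc 0 ha
      have f2 := h0 u hu hc
      have f3 := val_lt9 (len_unp J.w 9 D.s) u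
      have f4 : TT K Ap Am J D (30 * u + S.c) 0 = GG (30 * J.w) K Ap Am (30 * u + S.c) (2 * D.sa) -
        (if J.c = 2 then GG (30 * J.w) K Ap Am (30 * u + S.c) D.sa else 0) := rfl
      have f5 := rg 0 ha
      omega
    | succ a ih =>
      intro ha
      have f0 := ih (by omega)
      have f1 := v1_mod hT hR k1 k2 h0 u hu hc _ ha
      have f2 := (eB_spec hT hR k2 u hu hc a (by omega)).2
      have f3 := (eD_spec hT hR k1 u hu hc a (by omega)).2
      have f4 := TT_succ (K := K) (Ap := Ap) (Am := Am) (J := J) (D := D) (30 * u + S.c) a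
      have f5 := rg _ ha
      omega
  refine ⟨fun u hu hc => ?_, fun u hu hc a ha => ⟨(main u hu hc a ha).1, ?_⟩⟩
  · rw [← eqL_eq _ _ k4, val_mp' _ _ (2 * D.R * J.w + u) (by
      intro p
      rw [tb_and, tb_shr]
      have : (cm S J).testBit u = true := tb_cmask _ _ _ u hu hc
      rw [this, Bool.and_true]
      rfl), (main u hu hc _ le_rfl).1]
    unfold TT
    rw [Nat.mul_div_cancel_left _ (by norm_num), Nat.mul_add]
  · have f0 := main u hu hc a ha
    have f1 : (val (v2 S J D) (a * J.w + u) : ℤ) % 512 = _ := val_subM len_v1 len_eD _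
    have f2 := eD_spec hT hR k1 u hu hc a ha
    have f3 := val_lt9 (len_v2 (S := S) (J := J) (D := D)) (a * J.w + u)
    omega

end walk

end Cfsg.Agent.Depth.P.T
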